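import Mathlib
import Cfsg.Agent.Lib.Twist.MultD4b
import Cfsg.Agent.Lib.Twist.D4Mat
import Cfsg.Agent.Lib.Stein.SLaced
import Cfsg.Agent.Lib.Schur.Main

/-!
# The Schur multiplier of `³D₄(q)`
-/

set_option autoImplicit false
set_option linter.unusedSectionVars false

open scoped commutatorElement

namespace H39

open H38 H63.St

section Gen

variable {G Γ : Type*} [Group G] [Group Γ] {π : Γ →* G} (h : CE π)

theorem cc_comm_mem {M : Subgroup Γ} {x a b : G} (ha : a ∈ h.stab M) (hb : b ∈ h.stab M)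
    (h1 : ⁅x, a⁆ ∈ M.map π) (h2 : ⁅x, b⁆ ∈ M.map π) : h.cc x ⁅a, b⁆ ∈ M :=
  (h.commutator_cenM'_le M x (Subgroup.commutator_mem_commutator
    (⟨ha, h1⟩ : a ∈ h.cenM' M x) (⟨hb, h2⟩ : b ∈ h.cenM' M x))).2

theorem cc_jacobi {x y z : G} (h1 : h.cc x y = 1) (h2 : h.cc ⁅x, z⁆ ⁅y, z⁆ = 1) :
    h.cc x ⁅y, z⁆ = h.cc y ⁅x, z⁆ := by
  obtain ⟨x, rfl⟩ := h.surj x
  obtain ⟨y, rfl⟩ := h.surj y
  obtain ⟨z, rfl⟩ := h.surj z
  simp only [← map_commutatorElement] at h2 ⊢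
  have e1 := (h.commute_of_cc h1).eq
  have e2 := (h.commute_of_cc h2).eq
  rw [h.cc_map, h.cc_map]
  calc ⁅x, ⁅y, z⁆⁆ = ⁅x * y * x⁻¹, ⁅x, z⁆ * z⁆ * ⁅y, z⁆⁻¹ := by group
    _ = ⁅y, ⁅x, z⁆⁆ * (⁅x, z⁆ * ⁅y, z⁆) * ⁅x, z⁆⁻¹ * ⁅y, z⁆⁻¹ := by
      rw [e1, mul_inv_cancel_right]; group
    _ = _ := by rw [e2]; group

theorem le_comap_act {Y N : Subgroup Γ} {g : G} (hY : Y ≤ N) (hc : ∀ x ∈ Y.map π, h.cc g x ∈ N) :
    Y ≤ N.comap (h.act g).toMonoidHom := fun y hy => by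
  change h.act g y ∈ N
  rw [h.act_eq]; exact mul_mem (hc _ ⟨y, hy, rfl⟩) (hY hy)

theorem YT_bot [Finite G] {Φ : Type*} {X : Φ → Subgroup G}
    (hH : ∀ t ∈ torus X, ∀ t' ∈ torus X, Commute t t') {r : Φ} (hc : h.CT X r r) {t : G}
    (ht : t ∈ torus X) (h0 : Fpf t (X r)) :
    (h.YT (torus X) (X r) ⊥).map π = X r ∧ ∀ y ∈ h.YT (torus X) (X r) ⊥, π y = 1 → y = 1 := by
  refine h.YT_spec (by simp) (by simp) (fun g _ => CE.mem_stab_bot g) (fun g _ => CE.mem_stab_bot g)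
    (fun x hx y hy => by simp [hc x hx y hy]) (fun t ht x hx => (mem_torus.1 ht).conj_mem hx)
    (fun t ht t' ht' x _ => by simp [(hH t ht t' ht').commutator_eq]) ht (fun y hy => ?_)
    fun x hx e => ?_
  · obtain ⟨x, hx, e⟩ := h0.surj (fun _ hy => (mem_torus.1 ht).conj_mem hy) hy
    exact ⟨x, hx, 1, one_mem _, by rw [mul_one, e]⟩
  · simp only [Subgroup.map_bot, Subgroup.mem_bot] at e ⊢
    exact h0 x hx (commutatorElement_eq_one_iff_commute.1 e)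

theorem kerPP_of_mem [Finite G] {p : ℕ} [Fact p.Prime] (U : Subgroup G) (hU : ¬ p ∣ U.index)
    {M : Subgroup Γ} (hc : ∀ x ∈ U, ∀ y ∈ U, h.cc x y ∈ M) (hM : ∀ y ∈ M, π y = 1 → y = 1)
    (hs : π.ker ≤ commutator Γ) : KerPP π p := by
  refine ⟨U.index, ((Nat.Prime.coprime_iff_not_dvd Fact.out).2 hU).symm, fun z hz => ?_⟩
  have : (U.comap π).FiniteIndex :=
    ⟨by rw [Subgroup.index_comap_of_surjective _ h.surj]; exact Subgroup.FiniteIndex.index_ne_zero⟩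
  have h1 := H60.pow_index_mem_commutator (U.comap π) (h.cen hz) (hs hz)
  rw [Subgroup.index_comap_of_surjective _ h.surj] at h1
  exact hM _ ((Subgroup.commutator_le.2 fun a ha b hb => h.cc_map a b ▸ hc _ ha _ hb :
    ⁅U.comap π, U.comap π⁆ ≤ M) h1) (by rw [map_pow, hz, one_pow])

end Gen

variable {ι : Type} [Finite ι] {R : RS ι (Fin 4)} {K : Type*} [Field K] [Fintype K] [CharP K 2]
  {G : Type*} [Group G] [Finite G] {E : Elts R K G} {T : Tw E}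

namespace IsD4

open Tw RTw RTw.Cl

variable (h : IsD4 T 2)
include h

theorem cm {S S' : List (Fin 12)} {x y : T.Γ} (hx : (x : G) ∈ XL T S) (hy : (y : G) ∈ XL T S')
    (hp : ∀ i ∈ S, ∀ j ∈ S', 0 ≤ pr aD4 (vtD4 i) (vtD4 j) := by decide +kernel) : Commute x y :=
  Subtype.ext (h.comm_XL hp hx hy).eq

theorem lA (t : K) : (h.xa t : G) ∈ XL T [8, 9, 10] :=
  h.xa_val t ▸ mul_mem (y_mem (by simp) _) (mul_mem (y_mem (by simp) _) (y_mem (by simp) _))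

theorem lD (t : K) : (h.xd t : G) ∈ XL T [5, 6, 7] :=
  h.xd_val t ▸ mul_mem (y_mem (by simp) _) (mul_mem (y_mem (by simp) _) (y_mem (by simp) _))

theorem lE (t : K) : (h.xe t : G) ∈ XL T [2, 3, 4] :=
  h.xe_val t ▸ mul_mem (y_mem (by simp) _) (mul_mem (y_mem (by simp) _) (y_mem (by simp) _))

theorem lF (t : K) : (h.xF t : G) ∈ XL T [1] := h.xF_val t ▸ y_mem (by simp) _

theorem lG (t : K) : (h.xG t : G) ∈ XL T [0] := h.xG_val t ▸ y_mem (by simp) _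

theorem lB : (h.xb : G) ∈ XL T [11] := h.xb_val ▸ y_mem (by simp) _

/-- The torus element acting by the scalar `a` on the first two short root groups. -/
structure Tor (a : K) (t : T.Γ) : Prop where
  mem : t ∈ torus T.X
  cA : ∀ u, t * h.xa u * t⁻¹ = h.xa (a * u)
  cD : ∀ u, t * h.xd u * t⁻¹ = h.xd (a * u)
  cE : ∀ u, t * h.xe u * t⁻¹ = h.xe (a ^ 6 * u)
  cF : ∀ u, Commute (h.xF u) t
  cG : ∀ u, Commute (h.xG u) t
  cB : Commute h.xb t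
  pow : t ^ 7 = 1
  fpf : a ≠ 1 → Fpf t (T.X (T.S.cs 0)) ∧ Fpf t (T.X (T.S.wo1 1 • T.S.cs 0)) ∧
      Fpf t (T.X (T.S.wo1 0 • T.S.wo1 1 • T.S.cs 0))

theorem pow_seven {a : K} (ha : a ≠ 0) : a ^ 7 = 1 :=
  mul_left_cancel₀ ha (by rw [← pow_succ', h.pow_eight, mul_one])

theorem tor {a : K} (ha : a ≠ 0) : ∃ t, h.Tor a t := by
  obtain ⟨t, ht, e, h7, hf⟩ := h.exists_tor (Units.mk0 a ha)
  have h8 := h.pow_seven ha
  have e3 : ∀ i j k u v w, (t : G) * (yD4 T i u * (yD4 T j v * yD4 T k w)) * (t : G)⁻¹ =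
      yD4 T i (a ^ exD4 i * u) * (yD4 T j (a ^ exD4 j * v) * yD4 T k (a ^ exD4 k * w)) :=
    fun i j k u v w => by
      rw [← Units.val_mk0 ha, ← e, ← e, ← e]; group
  have e1 : ∀ {x : T.Γ} i u, exD4 i = 0 → (x : G) = yD4 T i u → Commute x t := fun i u h1 h2 =>
    Subtype.ext (by
      have := e i u
      rw [h1, pow_zero, one_mul, mul_inv_eq_iff_eq_mul] at this
      rw [Subgroup.coe_mul, Subgroup.coe_mul, h2, this])
  refine ⟨t, ht, fun u => Subtype.ext ?_, fun u => Subtype.ext ?_, fun u => Subtype.ext ?_,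
    fun u => e1 1 _ rfl (h.xF_val u), fun u => e1 0 _ rfl (h.xG_val u), e1 11 _ rfl h.xb_val, h7,
    fun h1 => hf fun e => h1 (congrArg Units.val e)⟩
  · rw [Subgroup.coe_mul, Subgroup.coe_mul, xa_val, xa_val, Subgroup.coe_inv, e3]
    simp [exD4, mul_pow]
  · rw [Subgroup.coe_mul, Subgroup.coe_mul, xd_val, xd_val, Subgroup.coe_inv, e3]
    simp [exD4, mul_pow]
  · rw [Subgroup.coe_mul, Subgroup.coe_mul, xe_val, xe_val, Subgroup.coe_inv, e3,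
      show (a ^ 6 * u) ^ 2 = a ^ 5 * u ^ 2 by linear_combination a ^ 5 * u ^ 2 * h8,
      show (a ^ 6 * u) ^ 4 = a ^ 3 * u ^ 4 by
        linear_combination a ^ 3 * u ^ 4 * (a ^ 14 + a ^ 7 + 1) * h8]
    rfl

theorem exists_a : ∃ a : K, a ≠ 0 ∧ a + 1 ≠ 0 ∧ a ^ 2 + a * 1 + 1 ^ 2 ≠ 0 :=
  exists_cube_ne K (exists_not_mem_of_lt_card (by rw [Nat.card_eq_fintype_card, h.hK]; norm_num))

theorem tor0 : ∃ a t, h.Tor a t ∧ Fpf t (T.X (T.S.cs 0)) ∧ Fpf t (T.X (T.S.wo1 1 • T.S.cs 0)) ∧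
    Fpf t (T.X (T.S.wo1 0 • T.S.wo1 1 • T.S.cs 0)) := by
  obtain ⟨a, h0, h1, -⟩ := h.exists_a
  obtain ⟨t, ht⟩ := h.tor h0
  exact ⟨a, t, ht, ht.fpf fun e => h1 (by rw [e, CharTwo.add_self_eq_zero])⟩

theorem xF_sq (w : K) : h.xF w ^ 2 = 1 := Subtype.ext (by
  rw [sq, Subgroup.coe_mul, xF_val, yD4, E.x_add, CharTwo.add_self_eq_zero, E.x_zero]; rfl)

theorem xF_eq_one {w : K} (e : h.xF w = 1) : w + w ^ 2 + w ^ 4 = 0 :=
  T.hF.x_eq_one _ _ ((h.xF_val w).symm.trans (congrArg Subtype.val e))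

theorem xF_of_xG {w : K} (e : h.xG w = 1) : h.xF w = 1 := by
  simpa [xG, mul_inv_eq_one] using e

theorem xe_zero : h.xe 0 = 1 := by simpa using h.xe_add 0 0

theorem xa_zero : h.xa 0 = 1 := by simpa using h.xa_add 0 0

variable {Γ : Type*} [Group Γ] {π : Γ →* T.Γ} (hπ : CE π)

theorem cc_short {x : T.Γ} (hx : ∀ a t, h.Tor a t → Commute x t) :
    ((∀ u, Commute x (h.xa u)) → ∀ u, hπ.cc x (h.xa u) = 1) ∧
    ((∀ u, Commute x (h.xd u)) → ∀ u, hπ.cc x (h.xd u) = 1) ∧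
    ((∀ u, Commute x (h.xe u)) → ∀ u, hπ.cc x (h.xe u) = 1) := by
  obtain ⟨a, t, ht, f1, f2, f3⟩ := h.tor0
  have hm := mem_torus.1 ht.mem
  refine ⟨fun hc u => ?_, fun hc u => ?_, fun hc u => ?_⟩
  · obtain ⟨y, hy, e⟩ := f1.surj (fun _ hy => hm.conj_mem hy) (h.mem_A.2 ⟨u, rfl⟩)
    obtain ⟨v, rfl⟩ := h.mem_A.1 hy
    exact e ▸ hπ.cc_comm_eq_one (hx a t ht) (hc v)
  · obtain ⟨y, hy, e⟩ := f2.surj (fun _ hy => hm.conj_mem hy) (h.mem_D.2 ⟨u, rfl⟩)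
    obtain ⟨v, rfl⟩ := h.mem_D.1 hy
    exact e ▸ hπ.cc_comm_eq_one (hx a t ht) (hc v)
  · obtain ⟨y, hy, e⟩ := f3.surj (fun _ hy => hm.conj_mem hy) (h.mem_E.2 ⟨u, rfl⟩)
    obtain ⟨v, rfl⟩ := h.mem_E.1 hy
    exact e ▸ hπ.cc_comm_eq_one (hx a t ht) (hc v)

theorem cFA (w u : K) : hπ.cc (h.xF w) (h.xa u) = 1 :=
  (h.cc_short hπ fun _ _ ht => ht.cF w).1 (fun _ => h.cm (h.lF _) (h.lA _)) u

theorem cFD (w u : K) : hπ.cc (h.xF w) (h.xd u) = 1 :=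
  (h.cc_short hπ fun _ _ ht => ht.cF w).2.1 (fun _ => h.cm (h.lF _) (h.lD _)) u

theorem cFE (w u : K) : hπ.cc (h.xF w) (h.xe u) = 1 :=
  (h.cc_short hπ fun _ _ ht => ht.cF w).2.2 (fun _ => h.cm (h.lF _) (h.lE _)) u

theorem cGA (w u : K) : hπ.cc (h.xG w) (h.xa u) = 1 :=
  (h.cc_short hπ fun _ _ ht => ht.cG w).1 (fun _ => h.cm (h.lG _) (h.lA _)) u

theorem cGD (w u : K) : hπ.cc (h.xG w) (h.xd u) = 1 :=
  (h.cc_short hπ fun _ _ ht => ht.cG w).2.1 (fun _ => h.cm (h.lG _) (h.lD _)) u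

theorem cGE (w u : K) : hπ.cc (h.xG w) (h.xe u) = 1 :=
  (h.cc_short hπ fun _ _ ht => ht.cG w).2.2 (fun _ => h.cm (h.lG _) (h.lE _)) u

theorem cBD (u : K) : hπ.cc h.xb (h.xd u) = 1 :=
  (h.cc_short hπ fun _ _ ht => ht.cB).2.1 (fun _ => h.cm h.lB (h.lD _)) u

theorem cBE (u : K) : hπ.cc h.xb (h.xe u) = 1 :=
  (h.cc_short hπ fun _ _ ht => ht.cB).2.2 (fun _ => h.cm h.lB (h.lE _)) u

theorem cFG (w u : K) : hπ.cc (h.xF w) (h.xG u) = 1 := by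
  rw [← one_mul u, ← comm_de]
  exact hπ.cc_comm_eq_one (h.cm (h.lF _) (h.lD _)) (h.cm (h.lF _) (h.lE _))

theorem cGG (w u : K) : hπ.cc (h.xG w) (h.xG u) = 1 := by
  rw [← one_mul u, ← comm_de]
  exact hπ.cc_comm_eq_one (h.cm (h.lG _) (h.lD _)) (h.cm (h.lG _) (h.lE _))

theorem cBG (u : K) : hπ.cc h.xb (h.xG u) = 1 := by
  rw [← one_mul u, ← comm_de]
  exact hπ.cc_comm_eq_one (h.cm h.lB (h.lD _)) (h.cm h.lB (h.lE _))

theorem cFF (w u : K) : hπ.cc (h.xF w) (h.xF u) = 1 :=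
  hπ.cc_comm_eq_one (h.cm (h.lF _) (h.lA _)) (h.cm (h.lF _) (h.lE _))

theorem ctD : hπ.CT T.X (T.S.wo1 1 • T.S.cs 0) (T.S.wo1 1 • T.S.cs 0) :=
  ct_conj hπ (h.nn_acts 1) (h.ct0 hπ)

theorem ctE : hπ.CT T.X (T.S.wo1 0 • T.S.wo1 1 • T.S.cs 0) (T.S.wo1 0 • T.S.wo1 1 • T.S.cs 0) :=
  ct_conj hπ (h.nn_acts 0) (h.ctD hπ)

theorem cEE (w u : K) : hπ.cc (h.xe w) (h.xe u) = 1 :=
  h.ctE hπ _ (h.mem_E.2 ⟨w, rfl⟩) _ (h.mem_E.2 ⟨u, rfl⟩)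

theorem Tor.act_F {a : K} {t : T.Γ} (ht : h.Tor a t) {y : Γ} {w : K} (e : π y = h.xF w) :
    hπ.act t y = y := by
  refine hπ.act_of_cc (eq_one_of_coprime (a := 2) (b := 7) (by norm_num) ?_ ?_) <;> rw [e]
  · rw [← hπ.cc_pow_of_commute (ht.cF w).symm, xF_sq, CE.cc_one_right]
  · rw [CE.cc_swap, inv_pow, ← hπ.cc_pow_of_commute (ht.cF w), ht.pow, CE.cc_one_right, inv_one]

/-- The canonical lift of the second long root group. -/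
noncomputable def gg (w : K) : Γ := hπ.cc (h.xa 1) (h.xe w)

theorem map_gg (w : K) : π (h.gg hπ w) = h.xF w := hπ.map_cc _ _

theorem gg_add (v w : K) : h.gg hπ (v + w) = h.gg hπ v * h.gg hπ w := by
  rw [gg, ← xe_add, hπ.cc_mul_right_of (hπ.cc_eq_one_symm (h.cFE hπ w v))]; rfl

theorem gg_zero : h.gg hπ 0 = 1 := by rw [gg, xe_zero, CE.cc_one_right]

theorem cAE (u v : K) : hπ.cc (h.xa u) (h.xe v) = h.gg hπ (u * v) := by
  rcases eq_or_ne u 0 with rfl | hu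
  · rw [xa_zero, CE.cc_one_left, zero_mul, gg_zero]
  obtain ⟨t, ht⟩ := h.tor hu
  rw [← ht.act_F h hπ (h.map_gg hπ _), gg, CE.act_cc, ht.cA, ht.cE, mul_one, ← mul_assoc, ← pow_succ,
    h.pow_seven hu, one_mul]

theorem cDE (u v : K) : hπ.cc (h.xd u) (h.xe v) = hπ.act (h.nn 1) (h.gg hπ (u * v)) := by
  rw [← cAE, CE.act_cc, nn_xe, xd]

theorem cc_ad (u s t : K) :
    hπ.cc (h.xa u) ⁅h.xa s, h.xd t⁆ = h.gg hπ (u * (s ^ 4 * t ^ 2 + s ^ 2 * t ^ 4)) := by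
  rw [comm_ad, CE.cc_mul_right, CE.cc_mul_right, hπ.cc_eq_one_symm (h.cGA hπ _ _),
    hπ.cc_eq_one_symm (h.cFA hπ _ _), one_mul, one_mul, cAE,
    hπ.act_of_cc (a := h.xF _) (by rw [map_gg, cFF]),
    hπ.act_of_cc (by rw [map_gg, hπ.cc_eq_one_symm (h.cFG hπ _ _)])]

theorem gg_tr (w : K) : h.gg hπ w = h.gg hπ (w + w ^ 2 + w ^ 4) := by
  have k : ∀ u, h.gg hπ (u * (u ^ 2 + u ^ 4)) = 1 := fun u => by
    have := cc_jacobi hπ (x := h.xa u) (y := h.xa 1) (z := h.xd u)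
      (h.ct0 hπ _ (h.mem_A.2 ⟨_, rfl⟩) _ (h.mem_A.2 ⟨_, rfl⟩)) (by
        have s := @CE.cc_eq_one_symm _ _ _ _ _ hπ
        rw [comm_ad, comm_ad]
        refine hπ.cc_mul_eq_one (s ?_) (hπ.cc_mul_eq_one (s ?_) (s ?_)) <;>
          refine hπ.cc_mul_eq_one ?_ (hπ.cc_mul_eq_one ?_ ?_)
        exacts [h.cGG hπ _ _, s (h.cFG hπ _ _), h.cGE hπ _ _, h.cFG hπ _ _, h.cFF hπ _ _, h.cFE hπ _ _,
          s (h.cGE hπ _ _), s (h.cFE hπ _ _), h.cEE hπ _ _])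
    rw [cc_ad, cc_ad, mul_comm (u ^ 4), CharTwo.add_self_eq_zero, mul_zero, gg_zero] at this
    simpa using this
  have h8 := h.pow_eight w
  rw [add_assoc, gg_add, show w ^ 2 + w ^ 4 = w ^ 6 * ((w ^ 6) ^ 2 + (w ^ 6) ^ 4) by
    linear_combination (-w ^ 10 - w ^ 3 - w ^ 22 - w ^ 15 - w ^ 8 - w) * h8, k, mul_one]

/-- The lift of the second long root group. -/
noncomputable def YF : Subgroup Γ where
  carrier := Set.range (h.gg hπ)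
  one_mem' := ⟨0, h.gg_zero hπ⟩
  mul_mem' := by
    rintro _ _ ⟨a, rfl⟩ ⟨b, rfl⟩
    exact ⟨a + b, h.gg_add hπ a b⟩
  inv_mem' := by
    rintro _ ⟨a, rfl⟩
    exact ⟨a, eq_inv_of_mul_eq_one_left (by rw [← gg_add, CharTwo.add_self_eq_zero, gg_zero])⟩

/-- The lift of the third long root group. -/
noncomputable def YG : Subgroup Γ := (h.YF hπ).map (hπ.act (h.nn 1)).toMonoidHom

theorem mapF {x : T.Γ} : x ∈ (h.YF hπ).map π ↔ ∃ w, h.xF w = x :=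
  ⟨fun ⟨_, ⟨w, e⟩, e'⟩ => ⟨w, by rw [← e', ← e, map_gg]⟩, fun ⟨w, e⟩ => ⟨_, ⟨w, rfl⟩, e ▸ h.map_gg hπ w⟩⟩

theorem mapG {x : T.Γ} : x ∈ (h.YG hπ).map π ↔ ∃ w, h.xG w = x :=
  ⟨fun ⟨_, ⟨_, ⟨w, e⟩, e1⟩, e'⟩ => ⟨w, by rw [← e', ← e1, ← e, xG, ← h.map_gg hπ, ← hπ.map_act]; rfl⟩,
    fun ⟨w, e⟩ => ⟨_, ⟨_, ⟨w, rfl⟩, rfl⟩, by rw [← e, xG, ← h.map_gg hπ, ← hπ.map_act]; rfl⟩⟩

theorem injF : ∀ y ∈ h.YF hπ, π y = 1 → y = 1 := by
  rintro _ ⟨w, rfl⟩ e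
  rw [gg_tr, h.xF_eq_one ((h.map_gg hπ w).symm.trans e), gg_zero]

theorem injG : ∀ y ∈ h.YG hπ, π y = 1 → y = 1 := by
  rintro _ ⟨y, hy, rfl⟩ e
  rw [h.injF hπ y hy (by simpa [mul_inv_eq_one] using e), map_one]

theorem Tor.act_G {a : K} {t : T.Γ} (ht : h.Tor a t) {y : Γ} {w : K} (e : π y = h.xG w) :
    hπ.act t y = y := by
  refine hπ.act_of_cc (eq_one_of_coprime (a := 2) (b := 7) (by norm_num) ?_ ?_) <;> rw [e]
  · rw [← hπ.cc_pow_of_commute (ht.cG w).symm, xG, conj_pow, xF_sq, mul_one, mul_inv_cancel,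
      CE.cc_one_right]
  · rw [CE.cc_swap, inv_pow, ← hπ.cc_pow_of_commute (ht.cG w), ht.pow, CE.cc_one_right, inv_one]

include hπ in
/-- The `2`-part of the multiplier of `³D₄(2)`. -/
theorem kerPP_two (hs : π.ker ≤ commutator Γ) : KerPP π 2 := by
  have s := @CE.cc_eq_one_symm _ _ _ _ _ hπ
  obtain ⟨a0, t0, ht0, fA, fD, fE⟩ := h.tor0
  have hH := h.good.torus_comm h.hg h.G1_eq h.h3
  obtain ⟨mD, iD⟩ := YT_bot hπ hH (h.ctD hπ) ht0.mem fD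
  obtain ⟨mE, iE⟩ := YT_bot hπ hH (h.ctE hπ) ht0.mem fE
  have tY : ∀ r, ∀ t ∈ torus T.X, hπ.YT (torus T.X) (T.X r) ⊥ ≤
      (hπ.YT (torus T.X) (T.X r) ⊥).comap (hπ.act t).toMonoidHom := fun r t ht y hy =>
    hπ.act_mem_YT (fun _ hu => mul_mem (mul_mem ht hu) (inv_mem ht))
      (fun _ hx => (mem_torus.1 ht).conj_mem hx) (by simp) hy
  have tD := tY (T.S.wo1 1 • T.S.cs 0)
  have tE := tY (T.S.wo1 0 • T.S.wo1 1 • T.S.cs 0)
  generalize hπ.YT _ (T.X (T.S.wo1 1 • T.S.cs 0)) ⊥ = YD at mD iD tD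
  generalize hπ.YT _ (T.X (T.S.wo1 0 • T.S.wo1 1 • T.S.cs 0)) ⊥ = YE at mE iE tE
  have kD : ∀ {x}, x ∈ YD.map π ↔ ∃ w, h.xd w = x := by rw [mD]; exact h.mem_D
  have kE : ∀ {x}, x ∈ YE.map π ↔ ∃ w, h.xe w = x := by rw [mE]; exact h.mem_E
  have kF := @IsD4.mapF _ _ _ _ _ _ _ _ _ _ _ _ h _ _ _ hπ
  have kG := @IsD4.mapG _ _ _ _ _ _ _ _ _ _ _ _ h _ _ _ hπ
  -- criterion for normalising
  have st : ∀ {g : T.Γ} {N : Subgroup Γ}, YE ⊔ (h.YF hπ ⊔ h.YG hπ) ≤ N → (∀ w, hπ.cc g (h.xe w) ∈ N) →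
      (∀ w, hπ.cc g (h.xF w) ∈ N) → (∀ w, hπ.cc g (h.xG w) ∈ N) →
      YE ⊔ (h.YF hπ ⊔ h.YG hπ) ≤ N.comap (hπ.act g).toMonoidHom := fun hN h1 h2 h3 =>
    sup_le (le_comap_act hπ (le_sup_left.trans hN) fun x hx => by
        obtain ⟨w, rfl⟩ := kE.1 hx; exact h1 w)
      (sup_le (le_comap_act hπ ((le_sup_of_le_right le_sup_left).trans hN) fun x hx => by
        obtain ⟨w, rfl⟩ := kF.1 hx; exact h2 w)
      (le_comap_act hπ ((le_sup_of_le_right le_sup_right).trans hN) fun x hx => by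
        obtain ⟨w, rfl⟩ := kG.1 hx; exact h3 w))
  have i0 : ∀ y ∈ h.YF hπ ⊔ h.YG hπ, π y = 1 → y = 1 := by
    refine inj_sup hπ (h.injF hπ) (h.injG hπ) (le_stab_of_cc hπ fun x hx y hy => ?_) fun x hx hy => ?_
    · obtain ⟨w, rfl⟩ := kF.1 hx
      obtain ⟨u, rfl⟩ := kG.1 hy
      rw [cFG]; exact one_mem _
    · obtain ⟨w, rfl⟩ := kF.1 hx
      obtain ⟨u, e⟩ := kG.1 hy
      exact h.xF_of_xG (by rw [← comm_bF, ← e, (h.cm h.lB (h.lG u)).commutator_eq])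
  have c0 : ∀ g, (∀ w, Commute (h.xF w) g) → (∀ w, Commute (h.xG w) g) →
      (h.YF hπ ⊔ h.YG hπ).map π ≤ Subgroup.centralizer {g} := fun g h1 h2 => by
    rw [Subgroup.map_sup]
    refine sup_le (fun x hx => ?_) fun x hx => ?_
    · obtain ⟨w, rfl⟩ := kF.1 hx
      exact Subgroup.mem_centralizer_singleton_iff.2 (h1 w)
    · obtain ⟨w, rfl⟩ := kG.1 hx
      exact Subgroup.mem_centralizer_singleton_iff.2 (h2 w)
  have i1 : ∀ y ∈ YE ⊔ (h.YF hπ ⊔ h.YG hπ), π y = 1 → y = 1 := by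
    refine inj_sup hπ iE i0 (CE.le_stab fun x hx => ?_) fun x hx hy => fE x (mE ▸ hx)
      (Subgroup.mem_centralizer_singleton_iff.1 (c0 _ ht0.cF ht0.cG hy)).symm
    obtain ⟨w, rfl⟩ := kE.1 hx
    refine (sup_le (le_comap_act hπ le_sup_left fun y hy => ?_)
      (le_comap_act hπ le_sup_right fun y hy => ?_) : h.YF hπ ⊔ h.YG hπ ≤ _)
    · obtain ⟨u, rfl⟩ := kF.1 hy
      rw [s (h.cFE hπ _ _)]; exact one_mem _
    · obtain ⟨u, rfl⟩ := kG.1 hy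
      rw [s (h.cGE hπ _ _)]; exact one_mem _
  have c1 : ∀ v, (YE ⊔ (h.YF hπ ⊔ h.YG hπ)).map π ≤ Subgroup.centralizer {h.xe v} := fun v => by
    rw [Subgroup.map_sup]
    refine sup_le (fun x hx => ?_)
      (c0 _ (fun _ => h.cm (h.lF _) (h.lE _)) fun _ => h.cm (h.lG _) (h.lE _))
    obtain ⟨w, rfl⟩ := kE.1 hx
    exact Subgroup.mem_centralizer_singleton_iff.2 (h.cm (h.lE _) (h.lE _))
  have t1 : ∀ a t, h.Tor a t → YE ⊔ (h.YF hπ ⊔ h.YG hπ) ≤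
      (YE ⊔ (h.YF hπ ⊔ h.YG hπ)).comap (hπ.act t).toMonoidHom := fun a t ht =>
    sup_le ((tE t ht.mem).trans (Subgroup.comap_mono le_sup_left)) (sup_le (fun y hy => by
      obtain ⟨w, e⟩ := kF.1 ⟨y, hy, rfl⟩
      change hπ.act t y ∈ YE ⊔ _
      rw [ht.act_F h hπ e.symm]; exact Subgroup.mem_sup_right (Subgroup.mem_sup_left hy))
      fun y hy => by
      obtain ⟨w, e⟩ := kG.1 ⟨y, hy, rfl⟩
      change hπ.act t y ∈ YE ⊔ _
      rw [ht.act_G h hπ e.symm]; exact Subgroup.mem_sup_right (Subgroup.mem_sup_right hy))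
  have fin : ∀ {N : Subgroup Γ} {t : T.Γ}, N ≤ N.comap (hπ.act t).toMonoidHom → t ∈ hπ.stab N :=
    fun {N t} ht => CE.le_stab (A := Subgroup.zpowers t) (fun g hg => by
      obtain ⟨n, rfl⟩ := (mem_powers_iff_mem_zpowers.2 hg : g ∈ Submonoid.powers t)
      induction n with
      | zero => simp
      | succ n ih =>
        intro y hy
        simp only [pow_succ, hπ.act_mul]
        exact ih (Subgroup.npow_mem_zpowers _ _) _ (ht hy)) (Subgroup.mem_zpowers t)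
  have mF : ∀ w, h.gg hπ w ∈ YE ⊔ (h.YF hπ ⊔ h.YG hπ) := fun w =>
    Subgroup.mem_sup_right (Subgroup.mem_sup_left ⟨w, rfl⟩)
  have mG : ∀ w, hπ.act (h.nn 1) (h.gg hπ w) ∈ YE ⊔ (h.YF hπ ⊔ h.YG hπ) := fun w =>
    Subgroup.mem_sup_right (Subgroup.mem_sup_right ⟨_, ⟨w, rfl⟩, rfl⟩)
  have pE : ∀ w, h.xe w ∈ (YE ⊔ (h.YF hπ ⊔ h.YG hπ)).map π := fun w =>
    Subgroup.map_mono le_sup_left (kE.2 ⟨w, rfl⟩)
  have pF : ∀ w, h.xF w ∈ (YE ⊔ (h.YF hπ ⊔ h.YG hπ)).map π := fun w => ⟨_, mF w, h.map_gg hπ w⟩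
  have pG : ∀ w, h.xG w ∈ (YE ⊔ (h.YF hπ ⊔ h.YG hπ)).map π := fun w =>
    Subgroup.map_mono (le_sup_of_le_right le_sup_right) (kG.2 ⟨w, rfl⟩)
  generalize YE ⊔ (h.YF hπ ⊔ h.YG hπ) = M1 at *
  have sA : ∀ {N}, M1 ≤ N → ∀ u, M1 ≤ N.comap (hπ.act (h.xa u)).toMonoidHom := fun hN u =>
    st hN (fun w => h.cAE hπ u w ▸ hN (mF _)) (fun w => s (h.cFA hπ w u) ▸ one_mem _)
      fun w => s (h.cGA hπ w u) ▸ one_mem _
  have sD : ∀ u, h.xd u ∈ hπ.stab M1 := fun u => fin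
    (st le_rfl (fun w => h.cDE hπ u w ▸ mG _) (fun w => s (h.cFD hπ w u) ▸ one_mem _)
      fun w => s (h.cGD hπ w u) ▸ one_mem _)
  have i2 : ∀ y ∈ YD ⊔ M1, π y = 1 → y = 1 := by
    refine inj_sup hπ iD i1 (fun x hx => ?_) fun x hx hy => ?_ <;> obtain ⟨u, rfl⟩ := kD.1 hx
    · exact sD u
    · by_contra h1
      have hu : u ≠ 0 := fun e => h1 (by simpa [e] using h.xd_add 0 0)
      have := h.comm_de u u⁻¹
      rw [(show Commute _ _ from Subgroup.mem_centralizer_singleton_iff.1 (c1 _ hy)).commutator_eq,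
        mul_inv_cancel₀ hu] at this
      simpa [CharTwo.add_self_eq_zero] using h.xF_eq_one (h.xF_of_xG this.symm)
  have cAD : ∀ u v, hπ.cc (h.xa u) (h.xd v) ∈ M1 := by
    obtain ⟨a, h0, h1, h3⟩ := h.exists_a
    refine hπ.cc_mem_of_inv (K := K) M1 h.xa h.xd (fun u => fin (sA le_rfl u)) sD (fun u v => ?_) {1} {1}
      (by simp) (by simp) (by simp) (fun _ _ => ⟨1, rfl, by rw [xa_add, mul_one]⟩)
      (fun _ _ => ⟨1, rfl, by rw [xd_add, mul_one]⟩) h0 h1 h3 fun b hb => ?_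
    · rw [comm_ad]; exact mul_mem (pG _) (mul_mem (pF _) (pE _))
    · obtain ⟨t, ht⟩ := h.tor (a := b) (by rcases hb with rfl | rfl <;> assumption)
      exact ⟨t, fin (t1 b t ht), fun v => ⟨1, rfl, by rw [ht.cA, mul_one, smul_eq_mul]⟩,
        fun v => ⟨1, rfl, by rw [ht.cD, mul_one, smul_eq_mul]⟩⟩
  have sA2 : ∀ u, h.xa u ∈ hπ.stab (YD ⊔ M1) := fun u => fin (sup_le
    (le_comap_act hπ le_sup_left fun x hx => by
      obtain ⟨v, rfl⟩ := kD.1 hx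
      exact Subgroup.mem_sup_right (cAD u v)) (sA le_sup_right u))
  have p1 : M1.map π ≤ (YD ⊔ M1).map π := Subgroup.map_mono le_sup_right
  have pD : ∀ w, h.xd w ∈ (YD ⊔ M1).map π := fun w => Subgroup.map_mono le_sup_left (kD.2 ⟨w, rfl⟩)
  have pBA : ∀ u, ⁅h.xb, h.xa u⁆ ∈ (YD ⊔ M1).map π := fun u => by
    rw [comm_ba]; exact mul_mem (p1 (pF _)) (mul_mem (p1 (pE _)) (pD _))
  have ms : ∀ x ∈ (YD ⊔ M1).map π, x ∈ hπ.stab (YD ⊔ M1) := by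
    rintro _ ⟨y, hy, rfl⟩; exact CE.map_mem_stab hy
  have sB : h.xb ∈ hπ.stab (YD ⊔ M1) := fin (sup_le (le_comap_act hπ le_sup_left fun x hx => by
      obtain ⟨v, rfl⟩ := kD.1 hx
      rw [cBD]; exact one_mem _)
    (st le_sup_right (fun w => h.cBE hπ w ▸ one_mem _) (fun w => cc_comm_mem hπ (sA2 1)
      (ms _ (p1 (pE w))) (pBA 1) (by rw [(h.cm h.lB (h.lE w)).commutator_eq]; exact one_mem _))
      fun w => h.cBG hπ w ▸ one_mem _))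
  have cBA : ∀ u, hπ.cc h.xb (h.xa u) ∈ YD ⊔ M1 := fun u => by
    obtain ⟨y, hy, e⟩ := fA.surj (fun _ hy => (mem_torus.1 ht0.mem).conj_mem hy) (h.mem_A.2 ⟨u, rfl⟩)
    obtain ⟨v, rfl⟩ := h.mem_A.1 hy
    rw [e]
    exact cc_comm_mem hπ (fin (sup_le ((tD _ ht0.mem).trans (Subgroup.comap_mono le_sup_left))
      ((t1 _ _ ht0).trans (Subgroup.comap_mono le_sup_right)))) (sA2 v)
      (by rw [ht0.cB.commutator_eq]; exact one_mem _) (pBA v)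
  have hS : ∀ x ∈ Set.range h.xa ∪ {h.xb} ∪ ((YD ⊔ M1).map π : Set T.Γ), x ∈ hπ.stab (YD ⊔ M1) := by
    rintro _ ((⟨u, rfl⟩ | rfl) | hx)
    exacts [sA2 u, sB, ms _ hx]
  have hU := h.U_le (S := Subgroup.closure (Set.range h.xa ∪ {h.xb} ∪ ((YD ⊔ M1).map π : Set T.Γ)))
    (fun t => Subgroup.subset_closure (.inl (.inl ⟨t, rfl⟩)))
    (fun t => Subgroup.subset_closure (.inr (pD t))) (fun t => Subgroup.subset_closure (.inr (p1 (pE t))))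
    (Subgroup.subset_closure (.inl (.inr rfl))) (Subgroup.subset_closure (.inr (p1 (pF 1))))
    (Subgroup.subset_closure (.inr (p1 (pG 1))))
  refine kerPP_of_mem hπ _ (RGD.not_dvd_index_U (h.good.faith h.hg) (h.good.Gp_eq h.hg h.G1_eq)
    (fun _ => h.good.isPGroup_X 2 _) (h.good.H0_eq h.hg h.G1_eq ▸ not_dvd_card_H1 h.h3 2))
    (fun x hx y hy => hπ.cc_mem_closure hS (fun x hx y hy => ?_) x (hU hx) y (hU hy)) i2 hs
  rcases hy with hy | ⟨m, hm, rfl⟩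
  swap
  · exact CE.cc_mem_of_stab (hS x hx) hm
  rw [CE.cc_swap, inv_mem_iff]
  rcases hx with hx | ⟨m, hm, rfl⟩
  swap
  · exact CE.cc_mem_of_stab (hS y (.inl hy)) hm
  rcases hx with ⟨u, rfl⟩ | rfl <;> rcases hy with ⟨v, rfl⟩ | rfl
  · rw [h.ct0 hπ _ (h.mem_A.2 ⟨_, rfl⟩) _ (h.mem_A.2 ⟨_, rfl⟩)]; exact one_mem _
  · exact cBA u
  · rw [CE.cc_swap, inv_mem_iff]; exact cBA v
  · simp

end IsD4

open Cfsg Cfsg.Lie in
theorem multiplier_D4 {K : Type*} [Field K] [Fintype K] {q : ℕ} (hq : IsPrimePow q)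
    (hK : Fintype.card K = q ^ 3) : HasCyclicSchurMultiplier (twistedD4 K q) 1 := by
  obtain ⟨R, E, hE, T, h, e⟩ := exists_D4 hq hK
  obtain ⟨p, hp, n, hpp, hn⟩ := FiniteField.card' K
  have := Fact.mk hpp
  rw [e]
  refine H60.hasSchur_of_mulEquiv (T.Γ.equivMapOfInjective _ (chevD4.group K).subtype_injective) ?_
  refine H78.Schur.hasCyclic_one_iff.2 fun Δ _ _ τ hτ => ?_
  have hτ' : CE τ := ⟨hτ.1, hτ.2.1⟩
  refine h.ker_eq_bot hτ' p ?_ hτ.2.2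
  rcases eq_or_ne q 2 with rfl | h2
  · obtain rfl : p = 2 := (Nat.prime_dvd_prime_iff_eq hpp Nat.prime_two).1
      (hpp.dvd_of_dvd_pow (hK ▸ hn ▸ dvd_pow_self p n.ne_zero))
    exact h.kerPP_two hτ' hτ.2.2
  · exact h.kerPP hτ' p h2 hτ.2.2

end H39
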