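import Mathlib
import Cfsg.Agent.Lib.Suz.SzRecog
import Cfsg.Agent.Lib.Suz.SubSetup
import Cfsg.Agent.Lib.Suzuki.Cover
import Cfsg.Agent.Lib.Stein.PL

/-!
# Nodes of Suzuki type of a root group datum: the order of the rank one torus
-/

set_option autoImplicit false
set_option linter.unusedSectionVars false

namespace H39

open Cfsg MulAction H40.RankOne H13.Suz H63.St

/-- Coordinates on a Suzuki `2`-group. -/
structure SzCo {G : Type*} [Group G] (Q : Subgroup G) (K : Type*) [Field K] where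
  /-- the twisting automorphism -/
  θ : K ≃+* K
  /-- the parametrisation -/
  w : K → K → G
  psi_inj : Function.Injective fun x : K => x * θ x
  w_mul : ∀ x y x' y', w x y * w x' y' = w (x + x') (y + y' + θ x * x')
  w_inj : ∀ x y x' y', w x y = w x' y' → x = x' ∧ y = y'
  mem : ∀ g, g ∈ Q ↔ ∃ x y, w x y = g

namespace SzCo

variable {G : Type*} [Group G] {Q : Subgroup G} {K : Type*} [Field K] (c : SzCo Q K)

/-- `d` acts as the scalar `k`. -/
def Sc (d : G) (k : K) : Prop := ∀ x y, d * c.w x y * d⁻¹ = c.w (k * x) (k * c.θ k * y)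

variable {c}

theorem Sc.mul {d d' : G} {k k' : K} (h : c.Sc d k) (h' : c.Sc d' k') : c.Sc (d * d') (k * k') :=
  fun x y => by
    rw [show d * d' * c.w x y * (d * d')⁻¹ = d * (d' * c.w x y * d'⁻¹) * d⁻¹ by group, h', h, map_mul]
    congr 1 <;> ring

theorem Sc.inv {d : G} {k : K} (h : c.Sc d k) (hk : k ≠ 0) : c.Sc d⁻¹ k⁻¹ := fun x y => by
  have h1 : c.θ k ≠ 0 := by simpa using hk
  have := h (k⁻¹ * x) (k⁻¹ * c.θ k⁻¹ * y)
  rw [map_inv₀, show k * (k⁻¹ * x) = x by field_simp,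
    show k * c.θ k * (k⁻¹ * (c.θ k)⁻¹ * y) = y by field_simp] at this
  rw [← this, map_inv₀]; group

theorem Sc.eq {d : G} {k k' : K} (h : c.Sc d k) (h' : c.Sc d k') : k = k' := by
  simpa using (c.w_inj _ _ _ _ ((h 1 0).symm.trans (h' 1 0))).1

variable (c)

theorem w_mem (x y : K) : c.w x y ∈ Q := (c.mem _).2 ⟨x, y, rfl⟩

theorem w_zero : c.w 0 0 = 1 := by simpa using c.w_mul 0 0 0 0

include c in
theorem card [Finite K] : Nat.card Q = Nat.card K ^ 2 := by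
  rw [sq, ← Nat.card_prod]
  refine (Nat.card_congr (Equiv.ofBijective (fun p : K × K => (⟨_, c.w_mem p.1 p.2⟩ : Q))
    ⟨fun p p' e => ?_, fun g => ?_⟩)).symm
  · exact Prod.ext (c.w_inj _ _ _ _ (congrArg Subtype.val e)).1 (c.w_inj _ _ _ _ (congrArg Subtype.val e)).2
  · obtain ⟨x, y, e⟩ := (c.mem g).1 g.2
    exact ⟨(x, y), Subtype.ext e⟩

theorem w_sq [CharP K 2] (x y : K) : c.w x y * c.w x y = c.w 0 (c.θ x * x) := by
  rw [c.w_mul, CharTwo.add_self_eq_zero, CharTwo.add_self_eq_zero, zero_add]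

include c in
theorem pow_four [CharP K 2] {g : G} (hg : g ∈ Q) : g ^ 4 = 1 := by
  obtain ⟨x, y, rfl⟩ := (c.mem g).1 hg
  rw [show 4 = 2 * 2 from rfl, pow_mul, sq, sq, w_sq, w_sq, mul_zero, w_zero]

end SzCo

section RankOne

variable {G Ω : Type*} [Group G] [Finite G] [MulAction G Ω] {a : Ω} {t : G} {Q : Subgroup G}

theorem setup_of_reg [IsPretransitive G Ω] (ht : t * t = 1)
    (hta : t • a ≠ a) (hle : Q ≤ stabilizer G a) (hn : ∀ h ∈ stabilizer G a, ∀ x ∈ Q, h * x * h⁻¹ ∈ Q)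
    (htr : ∀ c, c ≠ a → ∃ x ∈ Q, x • t • a = c) (hfree : ∀ x ∈ Q, x • t • a = t • a → x = 1)
    (heven : Even (Nat.card Q))
    (hodd : Odd (Nat.card ↥(stabilizer G a ⊓ stabilizer G (t • a)))) : IsRankOneSetup G Ω a t Q := by
  refine ⟨?_, ht, fun e => hta (by rw [e, one_smul]), hta, hle, hn,
    eq_bot_iff.2 fun x hx => hfree x hx.1 hx.2, le_antisymm (sup_le hle inf_le_left) fun h hh => ?_,
    heven, hodd⟩
  · rw [is_two_pretransitive_iff]
    intro b c b' c' h h'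
    obtain ⟨l, e⟩ := exists_smul_eq G b a
    obtain ⟨l', e'⟩ := exists_smul_eq G b' a
    obtain ⟨x, hx, ex⟩ := htr (l • c) fun h2 => h ((smul_left_cancel_iff l).1 (e.trans h2.symm))
    obtain ⟨y, hy, ey⟩ := htr (l' • c') fun h2 => h' ((smul_left_cancel_iff l').1 (e'.trans h2.symm))
    refine ⟨l'⁻¹ * y * x⁻¹ * l, ?_, ?_⟩
    · have hx' : x⁻¹ • a = a := hle (Q.inv_mem hx)
      have hy' : y • a = a := hle hy
      rw [mul_smul, mul_smul, mul_smul, e, hx', hy', inv_smul_eq_iff, e']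
    · rw [mul_smul, mul_smul, mul_smul, ← ex, inv_smul_smul, ey, inv_smul_smul]
  · have hh' : h • a = a := hh
    obtain ⟨q, hq, e⟩ := htr (h • t • a) fun e => hta (MulAction.injective h (e.trans hh'.symm))
    rw [← mul_inv_cancel_left q h]
    refine Subgroup.mul_mem_sup hq ⟨(stabilizer G a).mul_mem ((stabilizer G a).inv_mem (hle hq)) hh, ?_⟩
    change (q⁻¹ * h) • t • a = t • a
    rw [mul_smul, ← e, inv_smul_smul]

theorem ker_eq_bot_of_model (hS : IsRankOneSetup G Ω a t Q) (hL : LL t Q = ⊤) (h4 : ∀ x ∈ Q, x ^ 4 = 1)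
    {G' F : Type*} [Group G'] [Field F] [Fintype F] {m : ℕ} [H14.Sz.SzF F m] (S : H14.Sz.Model G' F m)
    {φ : G →* G'} (hφ : Function.Surjective φ) (hk : ∀ g, φ g = 1 → ∀ p : Ω, g • p = p) :
    φ.ker = ⊥ := by
  have h1 : ∀ z ∈ φ.ker, ∀ x ∈ Q, x * z = z * x := fun z hz x hx => by
    have := eq_one_of_Q_of_smul hS (mul_mem (conjQ hS (hk z hz a) hx) (inv_mem hx))
      (hk _ (by simp [MonoidHom.mem_ker.1 hz]) _)
    rwa [mul_inv_eq_one, mul_inv_eq_iff_eq_mul, eq_comm] at this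
  have h2 : φ.ker ≤ Subgroup.center G := fun z hz => Subgroup.mem_center_iff.2 fun g => by
    refine Subgroup.mem_centralizer_singleton_iff.1 ((LL_le (M := Subgroup.centralizer {z})
      (fun x hx => Subgroup.mem_centralizer_singleton_iff.2 (h1 z hz x hx)) ?_) (hL ▸ Subgroup.mem_top g))
    obtain ⟨s, hs, hs1, hs2⟩ := exists_inv_mem_Q hS
    obtain ⟨u, rfl⟩ := isConj_iff.1 (isConj_of_inv hS hs1 hs2 hS.ne_one hS.mul_self)
    have := h1 (u⁻¹ * z * u) (by simp [MonoidHom.mem_ker, MonoidHom.mem_ker.1 hz]) s hs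
    rw [Subgroup.mem_centralizer_singleton_iff]
    calc _ = u * (s * (u⁻¹ * z * u)) * u⁻¹ := by group
      _ = _ := by rw [this]; group
  have h3 : ∀ z ∈ φ.ker, z ^ Nat.card (DD G a t) = 1 := fun z hz =>
    congrArg Subtype.val (pow_card_eq_one' (x := (⟨z, mem_DD.2 ⟨hk z hz _, hk z hz _⟩⟩ : DD G a t)))
  have h5 : (Nat.card (DD G a t)).Coprime 2 := Nat.coprime_two_right.2 hS.odd_card
  have hσ : IsStemExtension φ := ⟨hφ, h2, fun z hz => by
    obtain ⟨k, hk⟩ := exists_pow_mem_commutator (p := 2) (z := z) (LL_le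
      (fun x hx => Subgroup.subset_closure (by exact ⟨2, h4 x hx⟩))
      (Subgroup.subset_closure (by exact ⟨1, by rw [pow_one, sq, hS.mul_self]⟩))
      (hL ▸ Subgroup.mem_top z))
    obtain ⟨j, hj⟩ := H60.exists_pow_eq_of_pow_coprime (h5.pow_right k) (h3 z hz)
    rw [hj, ← pow_mul, mul_comm, pow_mul]
    exact pow_mem hk j⟩
  refine eq_bot_iff.2 fun z hz => ?_
  rw [Subgroup.mem_bot, ← pow_one z]
  refine H60.ker_pow_eq_one h2 1 (fun p hp => ⟨0, dvd_rfl, (H60.expMod_zero_iff _ _).2 fun z hz => ?_⟩) hz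
  by_cases hp2 : p = 2
  · obtain ⟨k, hk⟩ := H60.exists_pow_eq_of_pow_coprime (hp2 ▸ h5) (h3 z hz)
    exact ⟨z ^ k, pow_mem hz k, hk⟩
  · exact S.ker_pow_odd hσ hp hp2 hz

theorem card_DD_Sz (hS : IsRankOneSetup G Ω a t Q) (hL : LL t Q = ⊤) {K : Type*} [Field K] [Finite K]
    [CharP K 2] (c : SzCo Q K) (h4 : 4 ≤ Nat.card K) (h3 : Nat.card K % 3 = 2)
    (all : ∀ d ∈ DD G a t, ∃ k, k ≠ 0 ∧ c.Sc d k ∧ c.Sc (t * d * t⁻¹) k⁻¹)
    (sc : ∀ k, k ≠ 0 → ∃ d ∈ DD G a t, c.Sc d k) : Nat.card (DD G a t) = Nat.card K - 1 := by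
  have := finite_Ω hS
  let φ := (toPermHom G Ω).rangeRestrict
  have hφ : Function.Surjective φ := MonoidHom.rangeRestrict_surjective _
  have hact : ∀ (g : G) (p : Ω), φ g • p = g • p := fun _ _ => rfl
  have hS' := H14.SubSetup.setup_map φ hφ hact hS
  have hD : ∀ d, φ d ∈ DD _ a (φ t) ↔ d ∈ DD G a t := fun d => by simp only [mem_DD, hact]
  have uniq : ∀ d ∈ DD G a t, ∀ d' ∈ DD G a t, ∀ k, c.Sc d k → c.Sc d' k → φ d = φ d' := by
    intro d hd d' hd' k h h'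
    refine Subtype.ext (Equiv.ext fun p => (?_ : d • p = d' • p))
    by_cases hp : p = a
    · rw [hp, (mem_DD.1 hd).1, (mem_DD.1 hd').1]
    obtain ⟨g, hg, rfl⟩ := exists_Q_smul_ta hS hp
    obtain ⟨x, y, rfl⟩ := (c.mem g).1 hg
    have e : ∀ d ∈ DD G a t, d • c.w x y • t • a = (d * c.w x y * d⁻¹) • t • a := fun d hd => by
      rw [mul_smul, mul_smul, (mem_DD.1 (inv_mem hd)).2]
    rw [e d hd, e d' hd', h, h']
  choose D hD1 hD2 using fun k : Kˣ => sc k k.ne_zero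
  let δ : Kˣ →* (toPermHom G Ω).range := MonoidHom.mk' (fun k => φ (D k)) fun k k' => by
    rw [← map_mul]
    exact uniq _ (hD1 _) _ (mul_mem (hD1 _) (hD1 _)) _ (hD2 _) ((hD2 _).mul (hD2 _))
  have hi : ∀ x y x' y', φ (c.w x y) = φ (c.w x' y') → x = x' ∧ y = y' := fun x y x' y' e =>
    c.w_inj _ _ _ _ (H14.SubSetup.inj_on_Q φ hact hS (c.w_mem _ _) (c.w_mem _ _) e)
  have hδ : ∀ k x y, δ k * φ (c.w x y) * (δ k)⁻¹ = φ (c.w (k * x) (k * c.θ k * y)) := fun k x y => by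
    rw [← hD2, map_mul, map_mul, map_inv]; rfl
  have hsur : ∀ d ∈ DD _ a (φ t), ∃ k, δ k = d := fun d hd => by
    obtain ⟨d, rfl⟩ := hφ d
    obtain ⟨k, hk, h1, -⟩ := all d ((hD d).1 hd)
    exact ⟨Units.mk0 k hk, uniq _ (hD1 _) _ ((hD d).1 hd) _ (hD2 _) h1⟩
  have hc : Nat.card (DD _ a (φ t)) = Nat.card K - 1 := by
    rw [← Nat.card_units]
    refine (Nat.card_congr (Equiv.ofBijective (fun k => (⟨δ k, (hD _).2 (hD1 k)⟩ : DD _ a (φ t)))
      ⟨fun k k' e => ?_, fun d => (hsur d d.2).imp fun k e => Subtype.ext e⟩)).symm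
    have := hδ k 1 0
    rw [show δ k = δ k' from congrArg Subtype.val e, hδ] at this
    exact Units.ext (by simpa using (hi _ _ _ _ this).1.symm)
  have hQ := H14.SubSetup.card_map_of_le φ hact hS le_rfl
  have hG' := card_G hS'
  rw [hQ, c.card, hc] at hG'
  have n3 : ¬ O3 t Q := by
    rintro ⟨u, hu, hu1, h⟩
    have h1 : u = (t * u) * t * (t * u)⁻¹ := by rw [h]; group
    have h2 : u * u = 1 := by rw [h1]; exact conj_sq hS.mul_self
    have h5 : φ (t * u) ^ 3 = 1 := by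
      rw [← map_pow, show (t * u) ^ 3 = (t * u * t) * (u * t * u) by simp [pow_succ, mul_assoc], h,
        show u * t * u * (u * t * u) = u * t * (u * u) * t * u by group, h2, mul_one, mul_assoc u,
        hS.mul_self, mul_one, h2, map_one]
    have h6 := eq_one_of_coprime ((Nat.Prime.coprime_iff_not_dvd Nat.prime_three).2 (by
      rw [hG', Nat.prime_three.dvd_mul, Nat.prime_three.dvd_mul, Nat.prime_three.prime.dvd_pow_iff_dvd
        two_ne_zero, Nat.dvd_iff_mod_eq_zero (n := _ + 1), Nat.add_mod, Nat.pow_mod, h3]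
      omega)) h5 pow_card_eq_one'
    refine ta_ne hS ?_
    have := congrArg (· • a) h6
    simpa only [hact, mul_smul, Q_smul hS hu, one_smul] using this
  obtain ⟨s, hs, r, hr, e⟩ := exists_structure hS
  obtain ⟨e1, -⟩ := (O3_or hS hs hr e (c.pow_four hr)).resolve_left n3
  obtain ⟨x0, y0, rfl⟩ := (c.mem r).1 hr
  rw [c.w_sq] at e1
  have h0 : x0 ≠ 0 := by rintro rfl; exact hs.2.1 (by rw [← e1, mul_zero, c.w_zero])
  have h0' : c.θ x0 ≠ 0 := by simpa using h0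
  obtain ⟨F, _, ⟨f⟩⟩ : ∃ (F : Type) (_ : Field F), Nonempty (F ≃+* K) :=
    ⟨Shrink.{0} K, inferInstance, ⟨Shrink.ringEquiv.{0} K⟩⟩
  have : Finite F := .of_equiv _ f.symm.toEquiv
  have : Fintype F := Fintype.ofFinite F
  have : CharP F 2 := f.symm.toRingHom.charP_iff_charP 2 |>.1 inferInstance
  let τ : TA (toPermHom G Ω).range a (φ t) (Q.map φ) F :=
    { θ := f.trans (c.θ.trans f.symm)
      w x y := φ (c.w (x0 * f x) (c.θ x0 * x0 * f y))
      δ := δ.comp (Units.map (f : F →* K))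
      four_le := by rwa [← Nat.card_eq_fintype_card, Nat.card_congr f.toEquiv]
      psi_inj x y h := f.injective (c.psi_inj (by simpa using congrArg f h))
      w_mul x y x' y' := by
        rw [← map_mul, c.w_mul]
        simp only [map_add, map_mul, RingEquiv.trans_apply, RingEquiv.apply_symm_apply]
        congr 2 <;> ring
      w_inj x y x' y' h := by simpa [h0] using hi _ _ _ _ h
      w_mem x y := ⟨_, c.w_mem _ _, rfl⟩
      w_surj := by
        rintro _ ⟨g, hg, rfl⟩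
        obtain ⟨x, y, rfl⟩ := (c.mem g).1 hg
        exact ⟨f.symm (x0⁻¹ * x), f.symm ((c.θ x0 * x0)⁻¹ * y), by
          rw [f.apply_symm_apply, f.apply_symm_apply, mul_inv_cancel_left₀ h0,
            mul_inv_cancel_left₀ (mul_ne_zero h0' h0)]⟩
      δ_mem k := ⟨(hD _).2 (hD1 _), by
        obtain ⟨k', hk', h1, h2⟩ := all _ (hD1 (Units.map (f : F →* K) k))
        have := uniq _ (conj_t_mem_D hS (hD1 _)) _ (inv_mem (hD1 _)) _ h2 (h1.inv hk')
        rwa [map_mul, map_mul, map_inv, map_inv] at this⟩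
      δ_surj d hd := by
        obtain ⟨k, rfl⟩ := hsur d hd.1
        exact ⟨Units.map (f.symm : K →* F) k, congrArg δ (Units.ext (f.apply_symm_apply _))⟩
      δ_w k x y := by
        rw [MonoidHom.comp_apply, hδ]
        simp only [Units.coe_map, MonoidHom.coe_coe, map_mul, RingEquiv.trans_apply,
          RingEquiv.apply_symm_apply]
        congr 2 <;> ring
      dist := ⟨f.symm ((c.θ x0 * x0)⁻¹ * y0), by
        rw [f.apply_symm_apply, mul_inv_cancel_left₀ (mul_ne_zero h0' h0), map_zero, map_one, mul_zero,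
          mul_one, mul_one, e1, ← map_mul, ← map_mul, e, map_mul, map_mul, map_inv]⟩ }
  obtain ⟨m, hm, hF, ⟨i⟩⟩ := sz_of_TA hS' τ
  have : H14.Sz.SzF F m := ⟨hm, hF⟩
  have hL' : LL (φ t) (Q.map φ) = ⊤ := by
    rw [← Subgroup.map_top_of_surjective φ hφ, ← hL, LL, LL, MonoidHom.map_closure, Set.image_insert_eq]
    rfl
  have hk := ker_eq_bot_of_model hS hL (fun _ => c.pow_four) ((H14.Sz.lieModel F m).comap
    (Subgroup.topEquiv.symm.trans ((MulEquiv.subgroupCongr hL'.symm).trans i))) hφ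
    fun g e p => by rw [← hact, e, one_smul]
  have h7 := card_G hS
  rw [Nat.card_congr (Equiv.ofBijective φ ⟨(MonoidHom.ker_eq_bot_iff _).1 hk, hφ⟩), hG', c.card] at h7
  exact (Nat.eq_of_mul_eq_mul_left (pow_pos Nat.card_pos 2)
    (Nat.eq_of_mul_eq_mul_right (Nat.succ_pos _) h7)).symm

end RankOne

section Node

variable {Φ I : Type*} {R : Roots Φ I} {G : Type*} [Group G] [Finite G] {E : RGD R G} {i : I}

theorem M_conj_T {m d : G} (hm : m ∈ E.M i) (hd : d ∈ E.T i) : m * d * m⁻¹ ∈ E.T i := by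
  have := Pre.mul_mem_T hm (Pre.M_conj (Pre.T_le_torus i hd) R.W.one_mem rfl (Pre.M_inv hm))
  rw [show m * d * m⁻¹ = m * (d * m⁻¹ * d⁻¹) * d by group]
  exact mul_mem this hd

theorem mem_TX {g : G} : g ∈ E.T i ⊔ E.X (R.α i) ↔ ∃ x ∈ E.X (R.α i), ∃ d ∈ E.T i, g = x * d :=
  ⟨exists_mul_of_mem_sup' fun _ hg _ ha => (mem_torus.1 (Pre.T_le_torus i hg)).conj_mem ha,
    fun ⟨_, hx, _, hd, e⟩ => e ▸ mul_mem (Subgroup.mem_sup_right hx) (Subgroup.mem_sup_left hd)⟩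

theorem TX_conj {g x : G} (hg : g ∈ E.T i ⊔ E.X (R.α i)) (hx : x ∈ E.X (R.α i)) :
    g * x * g⁻¹ ∈ E.X (R.α i) := by
  obtain ⟨y, hy, d, hd, rfl⟩ := mem_TX.1 hg
  have := mul_mem (mul_mem hy ((mem_torus.1 (Pre.T_le_torus i hd)).conj_mem hx)) (inv_mem hy)
  simpa [mul_assoc] using this

theorem M_pos {m x : G} (hm : m ∈ E.M i) (hx : x ∈ E.X (R.α i)) : m * x * m⁻¹ ∈ E.X (R.neg (R.α i)) :=
  R.σ_α i ▸ hm.1.conj_mem hx

theorem M_neg {m x : G} (hm : m ∈ E.M i) (hx : x ∈ E.X (R.neg (R.α i))) : m * x * m⁻¹ ∈ E.X (R.α i) :=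
  R.σ_neg_α i ▸ hm.1.conj_mem hx

theorem eq_one_of_TX (hF : E.Faith) {m x : G} (hm : m ∈ E.M i) (hx : x ∈ E.X (R.α i))
    (h : m⁻¹ * x * m ∈ E.T i ⊔ E.X (R.α i)) : x = 1 :=
  RGD.eq_one_of_conj_neg hF hx fun y hy => ⟨_, by
    have := M_pos hm (TX_conj h (M_neg (Pre.M_inv hm) hy))
    simpa [mul_assoc] using this, 1, one_mem _, by simp [mul_assoc]⟩

theorem bruhat_one {t : G} (ht : t ∈ E.M i) (h2 : t * t = 1) {g : G}
    (hg : g ∈ E.X (R.α i) ⊔ E.X (R.neg (R.α i))) : g ∈ E.T i ⊔ E.X (R.α i) ∨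
      ∃ x ∈ E.X (R.α i), ∃ b ∈ E.T i ⊔ E.X (R.α i), g = x * t * b := by
  have hi : t⁻¹ = t := inv_eq_of_mul_eq_one_right h2
  let S : G → Prop := fun g => g ∈ E.T i ⊔ E.X (R.α i) ∨
    ∃ x ∈ E.X (R.α i), ∃ b ∈ E.T i ⊔ E.X (R.α i), g = x * t * b
  have kx : ∀ x ∈ E.X (R.α i), ∀ g, S g → S (x * g) := by
    rintro x hx g (h | ⟨y, hy, b, hb, rfl⟩)
    · exact .inl (mul_mem (Subgroup.mem_sup_right hx) h)
    · exact .inr ⟨_, mul_mem hx hy, b, hb, by group⟩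
  have kt : ∀ g, S g → S (t * g) := by
    rintro g (h | ⟨x, hx, b, hb, rfl⟩)
    · exact .inr ⟨1, one_mem _, g, h, by group⟩
    by_cases h1 : x = 1
    · exact .inl (by rwa [h1, one_mul, ← mul_assoc, h2, one_mul])
    obtain ⟨u, hu, u', hu', hm⟩ := E.exists_M hx h1
    refine .inr ⟨_, M_neg ht (inv_mem hu), _, mul_mem (mul_mem (Subgroup.mem_sup_left
      (Pre.mul_mem_T hm ht)) (Subgroup.mem_sup_right (M_neg ht (inv_mem hu')))) hb, ?_⟩
    calc _ = t * x * t⁻¹ * b := by rw [hi]; group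
      _ = t * u⁻¹ * t⁻¹ * t * (u * x * u' * t⁻¹ * (t * u'⁻¹ * t⁻¹) * b) := by group
      _ = _ := by nth_rw 2 [hi]
  have ky : ∀ x ∈ (E.X (R.α i) ∪ E.X (R.neg (R.α i)) : Set G), ∀ g, S g → S (x * g) := by
    rintro x (hx | hx) g h
    · exact kx x hx g h
    · have := kt _ (kx _ (M_neg ht hx) _ (kt g h))
      rwa [show t * (t * x * t⁻¹ * (t * g)) = (t * t) * x * g by group, h2, one_mul] at this
  rw [Subgroup.sup_eq_closure] at hg
  induction hg using Subgroup.closure_induction_left with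
  | one => exact .inl (one_mem _)
  | mul_left x hx y _ ih => exact ky x hx y ih
  | inv_mul_cancel x hx y _ ih => exact ky _ (hx.imp inv_mem inv_mem) y ih

/-- The rank one torus at a node of Suzuki type. -/
theorem card_T_Sz (hF : E.Faith) (hT : Odd (Nat.card (E.T i))) {K : Type*} [Field K] [Finite K]
    [CharP K 2] (c : SzCo (E.X (R.α i)) K) (h4 : 4 ≤ Nat.card K) (h3 : Nat.card K % 3 = 2)
    (all : ∀ m ∈ E.M i, ∀ d ∈ torus E.X, ∃ k, k ≠ 0 ∧ c.Sc d k ∧ c.Sc (m * d * m⁻¹) k⁻¹)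
    (sc : ∀ k, k ≠ 0 → ∃ d ∈ torus E.X, c.Sc d k) : Nat.card (E.T i) = Nat.card K - 1 := by
  have h1 : c.w 0 1 ≠ 1 := fun e => one_ne_zero (c.w_inj _ _ _ _ (e.trans c.w_zero.symm)).2
  obtain ⟨u, hu, u', hu', ht⟩ := E.exists_M (c.w_mem 0 1) h1
  have h2 : u * c.w 0 1 * u' * (u * c.w 0 1 * u') = 1 := by
    have e : (u * c.w 0 1 * u')⁻¹ = u'⁻¹ * c.w 0 1 * u⁻¹ := by
      rw [mul_inv_rev, mul_inv_rev, inv_eq_of_mul_eq_one_right (show c.w 0 1 * c.w 0 1 = 1 by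
        rw [c.w_sq, mul_zero, c.w_zero]), mul_assoc]
    nth_rw 1 [RGD.M_unique hF hu hu' (inv_mem hu') (inv_mem hu) ht.1 (e ▸ (Pre.M_inv ht).1), ← e]
    exact inv_mul_cancel _
  generalize u * c.w 0 1 * u' = t at ht h2
  have hi : t⁻¹ = t := inv_eq_of_mul_eq_one_right h2
  let L := E.X (R.α i) ⊔ E.X (R.neg (R.α i))
  have hM : ∀ m ∈ E.M i, m ∈ L := by
    rintro _ ⟨-, x, hx, -, u, hu, u', hu', rfl⟩
    exact mul_mem (mul_mem (Subgroup.mem_sup_right hu) (Subgroup.mem_sup_left hx))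
      (Subgroup.mem_sup_right hu')
  have hTL : E.T i ≤ L := (Subgroup.closure_le _).2 <| by
    rintro _ ⟨m, hm, m', hm', rfl⟩; exact mul_mem (hM m hm) (hM m' hm')
  let B := (E.T i ⊔ E.X (R.α i)).subgroupOf L
  let t' : L := ⟨t, hM t ht⟩
  have s1 : ∀ g : L, g • ((1 : L) : L ⧸ B) = (1 : L) ↔ (g : G) ∈ E.T i ⊔ E.X (R.α i) := fun g => by
    rw [← mem_stabilizer_iff, stabilizer_quotient, Subgroup.mem_subgroupOf]
  have s2 : ∀ g : L, g • t' • ((1 : L) : L ⧸ B) = t' • ((1 : L) : L ⧸ B) ↔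
      t⁻¹ * g * t ∈ E.T i ⊔ E.X (R.α i) := fun g => by
    rw [← inv_smul_eq_iff, ← mul_smul, ← mul_smul, mul_assoc, s1, mul_assoc]; rfl
  have hD : DD L ((1 : L) : L ⧸ B) t' = (E.T i).subgroupOf L := by
    ext g
    rw [mem_DD, s1, s2, Subgroup.mem_subgroupOf]
    refine ⟨fun ⟨a1, a2⟩ => ?_, fun h => ⟨Subgroup.mem_sup_left h,
      Subgroup.mem_sup_left (by simpa using M_conj_T (Pre.M_inv ht) h)⟩⟩
    obtain ⟨x, hx, d, hd, e⟩ := mem_TX.1 a1
    have := mul_mem a2 (Subgroup.mem_sup_left (inv_mem (M_conj_T (Pre.M_inv ht) hd)))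
    rwa [e, eq_one_of_TX hF ht hx (by simpa [e, mul_assoc] using this), one_mul]
  have hc : Nat.card (DD L ((1 : L) : L ⧸ B) t') = Nat.card (E.T i) := by
    rw [hD, Nat.card_congr (Subgroup.subgroupOfEquivOfLe hTL).toEquiv]
  let c' : SzCo ((E.X (R.α i)).subgroupOf L) K :=
    ⟨c.θ, fun x y => ⟨c.w x y, Subgroup.mem_sup_left (c.w_mem x y)⟩, c.psi_inj,
      fun x y x' y' => Subtype.ext (c.w_mul x y x' y'),
      fun x y x' y' e => c.w_inj x y x' y' (congrArg Subtype.val e),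
      fun g => (c.mem g).trans (by simp only [Subtype.ext_iff])⟩
  have hS : IsRankOneSetup L (L ⧸ B) ((1 : L) : L ⧸ B) t' ((E.X (R.α i)).subgroupOf L) := by
    refine setup_of_reg (Subtype.ext h2) (fun e => h1 (eq_one_of_TX hF ht (c.w_mem 0 1)
      (mul_mem (mul_mem (inv_mem ((s1 _).1 e)) (Subgroup.mem_sup_right (c.w_mem 0 1))) ((s1 _).1 e))))
      (fun x hx => (s1 _).2 (Subgroup.mem_sup_right hx)) (fun g hg x hx => TX_conj ((s1 _).1 hg) hx)
      (fun p hp => ?_) (fun x hx e => Subtype.ext (eq_one_of_TX hF ht hx ((s2 _).1 e))) ?_ (hc ▸ hT)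
    · obtain ⟨g, rfl⟩ := QuotientGroup.mk_surjective p
      rcases bruhat_one ht h2 g.2 with h | ⟨x, hx, b, hb, e⟩
      · exact absurd (by simpa using (s1 g).2 h) hp
      · refine ⟨⟨x, Subgroup.mem_sup_left hx⟩, hx, QuotientGroup.eq.2 ?_⟩
        change (x * (t * 1))⁻¹ * g ∈ E.T i ⊔ E.X (R.α i)
        simpa [e, mul_assoc] using hb
    · have := Fintype.ofFinite K
      obtain ⟨n, -, hn⟩ := FiniteField.card K 2
      rw [c'.card, Nat.card_eq_fintype_card, hn, ← pow_mul]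
      exact (Nat.even_pow' (by simp)).2 even_two
  rw [← hc]
  refine card_DD_Sz hS (eq_top_iff.2 fun g _ => ?_) c' h4 h3 (fun d hd => ?_) fun k hk => ?_
  · have : L ≤ (LL t' ((E.X (R.α i)).subgroupOf L)).map L.subtype := sup_le
      (fun x hx => ⟨⟨x, Subgroup.mem_sup_left hx⟩, le_LL _ _ hx, rfl⟩) fun x hx =>
      ⟨_, mul_mem (mul_mem (inv_mem (t_mem_LL _ _)) (le_LL _ _ (show
        (⟨_, Subgroup.mem_sup_left (M_neg ht hx)⟩ : L) ∈ _ from M_neg ht hx))) (t_mem_LL _ _),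
        by simp [t', mul_assoc]⟩
    exact (Subgroup.mem_map_iff_mem L.subtype_injective).1 (this g.2)
  · rw [hD] at hd
    obtain ⟨k, hk, a1, a2⟩ := all t ht d (Pre.T_le_torus i hd)
    exact ⟨k, hk, fun x y => Subtype.ext (a1 x y), fun x y => Subtype.ext (a2 x y)⟩
  · obtain ⟨l, rfl⟩ := (frobeniusEquiv K 2).surjective k
    have hl : l ≠ 0 := by rintro rfl; simp at hk
    obtain ⟨d, hd, a1⟩ := sc l hl
    obtain ⟨k, -, a2, a3⟩ := all t ht d hd
    obtain rfl := a1.eq a2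
    have a4 := Pre.mul_mem_T (Pre.M_conj hd R.W.one_mem rfl ht) (Pre.M_inv ht)
    refine ⟨⟨_, hTL a4⟩, hD ▸ a4, fun x y => Subtype.ext ?_⟩
    have := a1.mul (a3.inv (inv_ne_zero hl)) x y
    rw [inv_inv, ← sq] at this
    simpa [mul_assoc, frobenius_def, c'] using this

/-- The lifted rank one torus at a node of Suzuki type. -/
theorem card_T_lift_Sz [Finite Φ] {Γ : Type*} [Group Γ] [Finite Γ] {π : Γ →* G} (h : CE π)
    (hk : KerPP π 2) (hX : ∀ r, IsPGroup 2 (E.X r)) (hF : E.Faith) (htop : E.Gp = ⊤)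
    (hs : π.ker ≤ commutator Γ) (hH : ¬ 2 ∣ Nat.card E.H0) {K : Type*} [Field K] [Finite K]
    [CharP K 2] (c : SzCo (E.X (R.α i)) K) (h4 : 4 ≤ Nat.card K) (h3 : Nat.card K % 3 = 2)
    (all : ∀ m ∈ E.M i, ∀ d ∈ torus E.X, ∃ k, k ≠ 0 ∧ c.Sc d k ∧ c.Sc (m * d * m⁻¹) k⁻¹)
    (sc : ∀ k, k ≠ 0 → ∃ d ∈ torus E.X, c.Sc d k) :
    Nat.card ((h.liftRGD hk E hX).T i) = Nat.card K - 1 := by
  have hm := h.liftRGD_map hk E hX
  obtain ⟨w, hw⟩ := h.exists_lift_fun hk hX (fun p : K × K => c.w p.1 p.2) fun p => c.w_mem _ _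
  let c' : SzCo ((h.liftRGD hk E hX).X (R.α i)) K :=
    ⟨c.θ, fun x y => w (x, y), c.psi_inj, fun x y x' y' => h.pl_eq hk (hX _)
      (mul_mem (hw _).1 (hw _).1) (hw _).1 (by rw [map_mul, (hw _).2, (hw _).2, (hw _).2, c.w_mul]),
      fun x y x' y' e => c.w_inj x y x' y' ((hw (x, y)).2.symm.trans (e ▸ (hw (x', y')).2)),
      fun g => ⟨fun hg => by
        obtain ⟨x, y, e⟩ := (c.mem _).1 ((h.mem_pl (hX _)).1 hg).1
        exact ⟨x, y, h.pl_eq hk (hX _) (hw _).1 hg ((hw _).2.trans e)⟩, fun ⟨x, y, e⟩ => e ▸ (hw _).1⟩⟩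
  have key : ∀ d ∈ torus (h.liftRGD hk E hX).X, ∀ k, c.Sc (π d) k → c'.Sc d k := fun d hd k a x y =>
    h.pl_eq hk (hX _) ((mem_torus.1 hd).conj_mem (hw (x, y)).1) (hw _).1 (by
      rw [map_mul, map_mul, map_inv, (hw (x, y)).2, (hw _).2, a x y])
  refine card_T_Sz (h.liftRGD_faith hk E hX hF) ?_ c' h4 h3 (fun m hm' d hd => ?_) fun k hk' => ?_
  · refine Odd.of_dvd_nat ?_ (Subgroup.card_dvd_of_le (Pre.T_le_H0 i))
    rw [← RGD.card_ker_mul hF hm (h.liftRGD_inj hk E hX) (h.liftRGD_top hk E hX htop hs)]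
    refine Odd.mul (Nat.not_even_iff_odd.1 fun e => ?_) (Nat.not_even_iff_odd.1 (mt Even.two_dvd hH))
    obtain ⟨z, hz⟩ := exists_prime_orderOf_dvd_card' 2 e.two_dvd
    obtain ⟨N, h1, h2⟩ := hk
    have := eq_one_of_coprime h1 (h2 z z.2) (congrArg Subtype.val (hz ▸ pow_orderOf_eq_one z))
    simp [show z = 1 from Subtype.ext this] at hz
  · obtain ⟨k, a0, a1, a2⟩ := all _ (RGD.map_M hm (h.liftRGD_inj hk E hX) hm') _
      (mem_torus.2 ((mem_torus.1 hd).map hm))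
    exact ⟨k, a0, key d hd k a1, key _ (hm'.1.conj_torus hd) _ (by simpa using a2)⟩
  · obtain ⟨d, hd, a⟩ := sc k hk'
    obtain ⟨d, rfl⟩ := h.surj d
    exact ⟨d, h.acts_pl hX hd, key d (h.acts_pl hX hd) k a⟩

end Node

end H39
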