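import Mathlib
import Cfsg.Agent.Lib.Twist.MultF4
import Cfsg.Agent.Lib.Twist.SzNode
import Cfsg.Agent.Lib.Twist.F4Mat
import Cfsg.Agent.Lib.Schur.Main

/-!
# The Schur multiplier of `²F₄(q)`, `q > 2`
-/

set_option autoImplicit false
set_option linter.unusedSectionVars false

open scoped commutatorElement

namespace H39

open H38 H63.St

section Gen

variable {G Γ : Type*} [Group G] [Group Γ] {π : Γ →* G} (h : CE π)

theorem comm_two {p p' q q' z c c' : G} (h1 : ⁅p, q⁆ = c) (h2 : ⁅p', q'⁆ = c') (a1 : Commute p' q)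
    (a2 : Commute p c') (a3 : Commute p q') (a4 : Commute c' q) (a5 : Commute p z) (a6 : Commute p' z) :
    ⁅p * p', q * (q' * z)⁆ = c * c' := by
  rw [commutatorElement_def, mul_inv_eq_iff_eq_mul, mul_inv_eq_iff_eq_mul] at h1 h2 ⊢
  calc _ = p * (p' * q) * q' * z := by group
    _ = c * q * (p * c') * q' * (p' * z) := by
      rw [a1.eq, ← mul_assoc, h1, mul_assoc _ p', h2]; rw [a6.eq, ← a6.eq]; group
    _ = c * (q * c') * (p * q') * z * p' := by rw [a2.eq, a6.eq]; group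
    _ = c * c' * q * q' * (p * z) * p' := by rw [← a4.eq, a3.eq]; group
    _ = _ := by rw [a5.eq]; group

theorem YT_bot' [Finite G] {Φ : Type*} {X : Φ → Subgroup G}
    (hH : ∀ t ∈ torus X, ∀ t' ∈ torus X, Commute t t') {r : Φ} (hc : h.CT X r r) {t : G}
    (ht : t ∈ torus X) (h0 : Fpf t (X r)) :
    ∃ Y : Subgroup Γ, Y.map π = X r ∧ ∀ y ∈ Y, π y = 1 → y = 1 := by
  refine ⟨_, h.YT_spec (M := ⊥) (by simp) (by simp) (fun g _ => CE.mem_stab_bot g)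
    (fun g _ => CE.mem_stab_bot g)
    (fun x hx y hy => by simp [hc x hx y hy]) (fun t ht x hx => (mem_torus.1 ht).conj_mem hx)
    (fun t ht t' ht' x _ => by simp [(hH t ht t' ht').commutator_eq]) ht (fun y hy => ?_)
    fun x hx e => ?_⟩
  · obtain ⟨x, hx, e⟩ := h0.surj (fun _ hy => (mem_torus.1 ht).conj_mem hy) hy
    exact ⟨x, hx, 1, one_mem _, by rw [mul_one, e]⟩
  · simp only [Subgroup.map_bot, Subgroup.mem_bot] at e ⊢
    exact h0 x hx (commutatorElement_eq_one_iff_commute.1 e)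

namespace SzCo

variable {Q : Subgroup G} {K : Type*} [Field K] (c : SzCo Q K)

theorem w_eq (x y : K) : c.w x y = c.w x 0 * c.w 0 y := by simp [c.w_mul]

theorem comm_w0 {g : G} (hg : g ∈ Q) (y : K) : Commute g (c.w 0 y) := by
  obtain ⟨x', y', rfl⟩ := (c.mem g).1 hg
  simp [Commute, SemiconjBy, c.w_mul, add_comm]

theorem comm_le {g : G} (hg : g ∈ ⁅Q, Q⁆) : ∃ y, c.w 0 y = g := by
  let V : Subgroup G :=
    { carrier := Set.range (c.w 0)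
      one_mem' := ⟨0, c.w_zero⟩
      mul_mem' := by
        rintro _ _ ⟨a, rfl⟩ ⟨b, rfl⟩
        exact ⟨a + b, by simp [c.w_mul]⟩
      inv_mem' := by
        rintro _ ⟨a, rfl⟩
        exact ⟨-a, eq_inv_of_mul_eq_one_left (by simp [c.w_mul, c.w_zero])⟩ }
  refine (Subgroup.commutator_le.2 fun p hp q hq => ?_ : ⁅Q, Q⁆ ≤ V) hg
  obtain ⟨x, y, rfl⟩ := (c.mem p).1 hp
  obtain ⟨x', y', rfl⟩ := (c.mem q).1 hq
  refine ⟨c.θ x * x' - c.θ x' * x, ?_⟩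
  rw [commutatorElement_def, eq_mul_inv_iff_mul_eq, eq_mul_inv_iff_mul_eq, mul_assoc, c.w_mul, c.w_mul,
    c.w_mul, map_zero]
  congr 1 <;> ring

theorem cc_mem [Finite K] (h4 : 4 < Nat.card K) {M : Subgroup Γ} (hQ : Q ≤ h.stab M)
    (hM : ⁅Q, Q⁆ ≤ M.map π) (h1 : ∀ x ∈ Q, ∀ y, h.cc x (c.w 0 y) = 1)
    (sc : ∀ k, k ≠ 0 → ∃ d ∈ h.stab M, c.Sc d k) : ∀ x ∈ Q, ∀ y ∈ Q, h.cc x y ∈ M := by
  obtain ⟨a, h0, ha, h3⟩ := exists_cube_ne K (exists_not_mem_of_lt_card h4)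
  have fa : ∀ v v', ∃ a ∈ Set.range (c.w 0), c.w (v + v') 0 = c.w v 0 * c.w v' 0 * a :=
    fun v v' => ⟨_, ⟨-(c.θ v * v'), rfl⟩, by simp [c.w_mul]⟩
  have key := h.cc_mem_of_inv (K := K) M (c.w · 0) (c.w · 0) (fun _ => hQ (c.w_mem _ _))
    (fun _ => hQ (c.w_mem _ _))
    (fun _ _ => hM (Subgroup.commutator_mem_commutator (c.w_mem _ _) (c.w_mem _ _)))
    (Set.range (c.w 0)) (Set.range (c.w 0))
    (by rintro _ ⟨y, rfl⟩ w; rw [h.cc_eq_one_symm (h1 _ (c.w_mem _ _) y)]; exact one_mem _)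
    (by rintro _ ⟨y, rfl⟩ w; rw [h1 _ (c.w_mem _ _) y]; exact one_mem _)
    (by rintro _ ⟨y', rfl⟩ _ ⟨y, rfl⟩; rw [h1 _ (c.w_mem _ _) y]; exact one_mem _) fa fa h0 ha h3
    fun k hk => by
      obtain ⟨d, hd, e⟩ := sc k (by rcases hk with rfl | rfl <;> assumption)
      have : ∀ v, ∃ a ∈ Set.range (c.w 0), d * c.w v 0 * d⁻¹ = c.w (k • v) 0 * a :=
        fun v => ⟨1, ⟨0, c.w_zero⟩, by rw [e, mul_zero, mul_one, smul_eq_mul]⟩
      exact ⟨d, hd, this, this⟩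
  intro x hx y hy
  obtain ⟨u, v, rfl⟩ := (c.mem x).1 hx
  obtain ⟨u', v', rfl⟩ := (c.mem y).1 hy
  rw [c.w_eq u', CE.cc_mul_right, h1 _ hx, map_one, mul_one, c.w_eq, CE.cc_mul_left,
    h.cc_eq_one_symm (h1 _ (c.w_mem _ _) _), map_one, one_mul]
  exact key u u'

end SzCo

end Gen

variable {ι : Type} [Finite ι] {R : RS ι (Fin 4)} {K : Type*} [Field K] [Fintype K] [CharP K 2]
  {G : Type*} [Group G] [Finite G] {E : Elts R K G}

namespace IsF4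

open Tw RTw RTw.Cl

variable {T : Tw E} {e : ℕ} (h : IsF4 T e)
include h

/-- The elements of the fundamental root group of Suzuki type. -/
noncomputable def W (x y : K) : T.Γ := ⟨_, ((h.mem12 pmP).2 ⟨x, y, rfl⟩).2⟩

theorem W_val (x y : K) : (h.W x y : G) = E.x (R.sim 1) (x ^ e) * (E.x (R.sim 2) x *
    (E.x (R.s 2 (R.sim 1)) (x ^ (e + 1) + y) * E.x (R.s 1 (R.sim 2)) (y ^ (2 * e)))) := rfl

theorem W_mul (x y x' y' : K) : h.W x y * h.W x' y' = h.W (x + x') (y + y' + T.φ 2 x * x') := by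
  have b := h.b2 pmP
  have s : ∀ {r s : ι}, CkF4 (R.rt r) (R.rt s) [] → ∀ t u z, E.x r t * (E.x s u * z) =
      E.x s u * (E.x r t * z) := fun H t u z => (h.commute H t u).left_comm z
  have s1 : ∀ t u z, E.x (R.s 2 (R.sim 1)) t * (E.x (R.sim 1) u * z) =
      E.x (R.sim 1) u * (E.x (R.s 2 (R.sim 1)) t * z) := fun t u z => Commute.left_comm
    (T.σ.injective (by
      rw [map_mul, map_mul, b.σa, b.σc, (h.commute (by rw [h.rt_d, R.rt_sim]; decide +kernel) _ _).eq])) z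
  have s2 := s (r := R.s 2 (R.sim 1)) (s := R.sim 2) (by rw [h.rt_c, R.rt_sim]; decide +kernel)
  have s3 := s (r := R.s 1 (R.sim 2)) (s := R.sim 1) (by rw [h.rt_d, R.rt_sim]; decide +kernel)
  have s4 := s (r := R.s 1 (R.sim 2)) (s := R.sim 2) (by rw [h.rt_d, R.rt_sim]; decide +kernel)
  have s5 := s (r := R.s 1 (R.sim 2)) (s := R.s 2 (R.sim 1)) (by rw [h.rt_d, h.rt_c]; decide +kernel)
  have s6 : ∀ t u z, E.x (R.sim 2) u * (E.x (R.sim 1) t * z) = E.x (R.sim 1) t * (E.x (R.sim 2) u *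
      (E.x (R.s 2 (R.sim 1)) (t * u) * (E.x (R.s 1 (R.sim 2)) (t ^ 2 * u) * z))) := fun t u z => by
    rw [← mul_assoc, b.comm]; group
  have s7 : ∀ r t u z, E.x r t * (E.x r u * z) = E.x r (t + u) * z := fun r t u z => by
    rw [← mul_assoc, E.x_add]
  refine Subtype.ext ?_
  rw [Subgroup.coe_mul, W_val, W_val, W_val, ← mul_left_inj 1]
  simp only [mul_assoc, s1, s2, s3, s4, s5, s6, s7, pow_succ _ e, ← h.φ1, ← h.φ2, map_add, map_mul, b.inv,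
    b.sq x']
  congr 4
  · linear_combination -(T.φ 2 x * x') * (CharTwo.two_eq_zero : (2 : K) = 0)
  · ring_nf

/-- Coordinates on the fundamental root group of Suzuki type. -/
noncomputable def co : SzCo (T.X (T.S.cs 1)) K where
  θ := T.φ 2
  w := h.W
  psi_inj x y e := by
    have b := h.b2 pmP
    have e' := congrArg (T.φ 1) e
    simp only [map_mul, b.inv] at e e'
    rw [b.sq, b.sq] at e'
    by_cases hx : x = 0
    · rw [hx, eq_comm]; simpa [hx] using e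
    exact (T.φ 2).injective (mul_right_cancel₀ (mul_ne_zero hx ((map_ne_zero (T.φ 2)).2 hx))
      (by linear_combination e' - T.φ 2 y * e))
  w_mul := h.W_mul
  w_inj x y x' y' e := by
    obtain ⟨-, rfl, e3, -⟩ := (h.b2 pmP).inj (congrArg Subtype.val e)
    exact ⟨rfl, add_left_cancel e3⟩
  mem g := ⟨fun hg => ((h.mem12 pmP).1 ⟨h.PJ1 ▸ hg, g.2⟩).imp fun _ h => h.imp fun _ e =>
    Subtype.ext e.symm, fun ⟨x, y, e⟩ => e ▸ mem_X.2 (h.PJ1 ▸ ((h.mem12 pmP).2 ⟨x, y, rfl⟩).1 :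
      _ ∈ E.XS (T.S.PJ 1))⟩

theorem sc_of {d : T.Γ} (hd : d ∈ torus T.X) {χ : ι → K}
    (H : ∀ r ∈ T.S.PJ 1, ∀ t, d * E.x r t * (d : G)⁻¹ = E.x r (χ r * t)) : h.co.Sc d (χ (R.sim 2)) := by
  have b := h.b2 pmP
  simp only [h.PJ1, Set.mem_insert_iff, Set.mem_singleton_iff, forall_eq_or_imp, forall_eq] at H
  have k : ∀ x y, ((d * h.W x y * d⁻¹ : T.Γ) : G) = E.x (R.sim 1) (χ (R.sim 1) * x ^ e) *
      (E.x (R.sim 2) (χ (R.sim 2) * x) * (E.x (R.s 2 (R.sim 1)) (χ (R.s 2 (R.sim 1)) * (x ^ (e + 1) + y)) *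
      E.x (R.s 1 (R.sim 2)) (χ (R.s 1 (R.sim 2)) * y ^ (2 * e)))) := fun x y => by
    rw [← H.1, ← H.2.1, ← H.2.2.1, ← H.2.2.2, Subgroup.coe_mul, Subgroup.coe_mul, W_val, Subgroup.coe_inv]
    group
  have k' : ∀ x y, ∃ y', d * h.W x y * d⁻¹ = h.W (χ (R.sim 2) * x) y' ∧
      (χ (R.sim 2) * x) ^ (e + 1) + y' = χ (R.s 2 (R.sim 1)) * (x ^ (e + 1) + y) ∧
      T.φ 1 y' = χ (R.s 1 (R.sim 2)) * T.φ 1 y := fun x y => by
    obtain ⟨x', y', e⟩ := (h.co.mem _).1 ((mem_torus.1 hd).conj_mem (h.co.w_mem x y))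
    obtain ⟨-, rfl, e3, e4⟩ := b.inj ((congrArg Subtype.val e).trans (k x y))
    exact ⟨y', e.symm, e3, by rwa [h.φ1, h.φ1]⟩
  obtain ⟨y1, -, a1, a2⟩ := k' 1 0
  rw [map_zero, mul_zero, map_eq_zero] at a2
  intro x y
  obtain ⟨y', a3, a4, -⟩ := k' x y
  refine a3.trans (congrArg _ ?_)
  change _ = _ * T.φ 2 _ * _
  rw [h.φ2]
  simp only [a2, mul_one, one_pow, add_zero] at a1
  rw [← a1, mul_pow] at a4
  linear_combination a4

theorem exists_tt {d : T.Γ} (hd : d ∈ torus T.X) : ∃ c, (d : G) = Elts.tor h.h3 c := by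
  rw [h.good.torus_eq h.hg h.G1_eq, mem_H1] at hd
  obtain ⟨c, -, e⟩ := h.H_inf_Γ.le ⟨hd, d.2⟩
  exact ⟨c, e.symm⟩

theorem all {m : T.Γ} (hm : E.Rep m (T.S.wo 1)) {d : T.Γ} (hd : d ∈ torus T.X) :
    ∃ k, k ≠ 0 ∧ h.co.Sc d k ∧ h.co.Sc (m * d * m⁻¹) k⁻¹ := by
  obtain ⟨c, hc⟩ := h.exists_tt hd
  refine ⟨chi R c (R.sim 2), Units.ne_zero _, h.sc_of hd (χ := fun r => chi R c r) fun r _ t =>
    hc ▸ Elts.tor_conj_x h.h3 c r t, h.sc_of ((acts_of_rep (w := T.S.wo1 1) hm).conj_torus hd)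
    (χ := fun r => (chi R c r : K)⁻¹) fun r hr t => ?_⟩
  obtain ⟨a, ha, e⟩ := hm.conj_x (R.neg r)
  rw [show T.S.wo 1 (R.neg r) = r from R.rt_inj (by
    simp only [h.wo1, h.rt_s, R.rt_neg]
    exact (by decide +kernel : ∀ x ∈ lcF4 1, sF4 1 (sF4 2 (sF4 1 (sF4 2 (-x)))) = x) _
      ((h.mem_cs 1).1 hr))] at e
  rw [← mul_inv_cancel_left₀ ha t, ← e, mul_left_comm, ← e, ← Units.val_inv_eq_inv_val, ← chi_neg, chi,
    ← Elts.tor_conj_x h.h3, ← hc]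
  simp [mul_assoc]

theorem sc (k : K) (hk : k ≠ 0) : ∃ d ∈ torus T.X, h.co.Sc d k := by
  have hc : ![(Units.mk0 k hk)⁻¹ ^ e, 1, 1, (Units.mk0 k hk)⁻¹] ∈ T.T1 := h.mem_T1.2 ⟨rfl, by simp⟩
  refine ⟨_, tt_mem h.h3 hc, ?_⟩
  have := h.sc_of (tt_mem h.h3 hc) 
    (χ := fun r => chi R ![(Units.mk0 k hk)⁻¹ ^ e, 1, 1, (Units.mk0 k hk)⁻¹] r) fun r _ t =>
    Elts.tor_conj_x h.h3 _ r t
  simpa [chi_sim, h.ψ_eq] using this

theorem par0 : T.Par 0 [0, 3] fun j => if j = 0 then RingHom.id K else (T.φ 0 : K →+* K) :=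
  par2 h.orth0 h.ρ0 h.ρ3 fun t => by rw [h.φ0, h.φ3, h.pow_pow']

theorem ne_cs (k : Fin 2) {B : T.S.Cl} {r : ι} (hr : r ∈ B.1) (h1 : R.rt r ∉ lcF4 k ∧ -R.rt r ∉ lcF4 k) :
    B ≠ T.S.cs (gF4 k) ∧ B ≠ (T.S.cs (gF4 k)).neg :=
  ⟨fun e => h1.1 ((h.mem_cs k).1 (e ▸ hr)),
    fun e => h1.2 (R.rt_neg r ▸ (h.mem_cs k).1 (mem_neg.1 (e ▸ hr)))⟩

theorem mem_A1 {r : ι} (hr : r ∈ (T.S.wo1 1 • T.S.cs 0).1) :
    R.rt r ∈ [![1, 2, 1, 0], ![0, 2, 2, 1]] := by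
  obtain ⟨s, hs, rfl⟩ := hr
  change R.rt (T.S.wo 1 s) ∈ _
  simp only [h.wo1, h.rt_s]
  exact (by decide +kernel : ∀ x ∈ lcF4 0, sF4 1 (sF4 2 (sF4 1 (sF4 2 x))) ∈ [_, _]) _ ((h.mem_cs 0).1 hs)

theorem mem_A3 {r : ι} : r ∈ (T.S.cs 0).neg.1 ↔ R.rt r ∈ [![-1, 0, 0, 0], ![0, 0, 0, -1]] := by
  rw [mem_neg]
  refine (h.mem_cs 0).trans ?_
  rw [R.rt_neg]
  exact (by decide +kernel : ∀ x ∈ rlF4, -x ∈ lcF4 0 ↔ x ∈ [_, _]) _ (h.rt_mem r)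

theorem mem_A4 {r : ι} (hr : r ∈ (T.S.wo1 0 • (T.S.cs 1).neg).1) :
    R.rt r ∈ [![-1, -1, 0, 0], ![0, 0, -1, -1], ![-1, -1, -1, -1], ![-2, -2, -1, -1]] := by
  obtain ⟨s, hs, rfl⟩ := hr
  change R.rt (T.S.wo 0 s) ∈ _
  simp only [h.wo0, h.rt_s]
  exact (by decide +kernel : ∀ x ∈ rlF4, -x ∈ lcF4 1 → sF4 0 (sF4 3 x) ∈ [_, _, _, _]) _ (h.rt_mem s)
    (R.rt_neg s ▸ (h.mem_cs 1).1 (mem_neg.1 hs))

/-- The centre of the root group of Suzuki type consists of commutators. -/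
theorem exists_comm (y : K) : ∃ a ∈ T.X (T.S.wo1 1 • T.S.cs 0),
    ∃ b ∈ T.X (T.S.wo1 0 • (T.S.cs 1).neg), h.W 0 y = ⁅a, b⁆ := by
  obtain ⟨n, hn, hn'⟩ := h.good.exists_acts (T.S.wo1 1)
  obtain ⟨m, hm, hm'⟩ := h.good.exists_acts (T.S.wo1 0)
  choose c hc e1 using hn.conj_x
  choose d hd e2 using hm.conj_x
  have a1 := (h.mem03 pmP).2 ⟨1, rfl⟩
  have a2 := (h.mem12 pmN).2 ⟨((d (R.neg (R.sim 1)))⁻¹ * ((c (R.sim 0))⁻¹ * y)) ^ (2 * e), 0, rfl⟩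
  refine ⟨_, hn'.conj_mem (x := ⟨_, a1.2⟩) (mem_X.2 (E.XS_mono h.orth0.PJ_eq.ge a1.1)), _,
    hm'.conj_mem (x := ⟨_, a2.2⟩) (mem_X.2 (E.XS_mono ((neg_cs_val 1).trans h.NJ1).ge a2.1)), ?_⟩
  have a3 : ∃ v, ((⁅n * ⟨_, a1.2⟩ * n⁻¹, m * ⟨_, a2.2⟩ * m⁻¹⁆ : T.Γ) : G) = E.x (R.sim 1) 0 *
      (E.x (R.sim 2) 0 * (E.x (R.s 2 (R.sim 1)) y * E.x (R.s 1 (R.sim 2)) v)) := by
    refine ⟨c (R.sim 3) * (d (R.neg (R.sim 2)) *
      ((d (R.neg (R.sim 1)))⁻¹ * ((c (R.sim 0))⁻¹ * y)) ^ (2 * e)), ?_⟩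
    rw [← Subgroup.subtype_apply, map_commutatorElement, E.x_zero, E.x_zero, one_mul, one_mul]
    simp only [Subgroup.subtype_apply, Subgroup.coe_mul, Subgroup.coe_inv, ← conj_mul, e1, e2,
      h.pow_pow', one_pow, mul_one, mul_inv_cancel_left₀ (hd _)]
    refine comm_two ((h.comm_x ?_ ?_ ?_ _ _).trans (by rw [mul_inv_cancel_left₀ (hc _)]))
      (h.comm_x ?_ ?_ ?_ _ _) (h.commute ?_ _ _) (h.commute ?_ _ _) (h.commute ?_ _ _) (h.commute ?_ _ _)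
      ((h.commute ?_ _ _).mul_right (h.commute ?_ _ _)) ((h.commute ?_ _ _).mul_right (h.commute ?_ _ _))
    all_goals
      simp only [RTw.wo1, h.wo0, h.wo1, h.rt_s, R.rt_neg, R.rt_sim]
      decide +kernel
  obtain ⟨v, a3⟩ := a3
  generalize ⁅n * _ * n⁻¹, m * _ * m⁻¹⁆ = z at a3 ⊢
  obtain ⟨x', y', a4⟩ := (h.mem12 pmP).1 ⟨a3 ▸ mul_mem (E.x_mem_XS (by simp) _) (mul_mem
    (E.x_mem_XS (by simp) _) (mul_mem (E.x_mem_XS (by simp) _) (E.x_mem_XS (by simp) _))), z.2⟩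
  obtain ⟨-, rfl, a5, -⟩ := (h.b2 pmP).inj (a3.symm.trans a4)
  rw [zero_pow e.succ_ne_zero, zero_add] at a5
  exact Subtype.ext (by rw [a4, a5]; rfl)

variable {Γ : Type*} [Group Γ] {π : Γ →* T.Γ} (hπ : CE π) (hq : 4 < Fintype.card K)
include hq

theorem ct0 : hπ.CT T.X (T.S.cs 0) (T.S.cs 0) := by
  refine h.par0.ct hπ h.h3 (by rwa [Nat.card_eq_fintype_card]) fun a ha => ?_
  obtain ⟨b, rfl⟩ := (frobeniusEquiv K 2).surjective a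
  have hb : b ≠ 0 := by rintro rfl; simp at ha
  refine ⟨![Units.mk0 b hb, 1, 1, Units.mk0 b hb ^ (2 * e)],
    h.mem_T1.2 ⟨Units.ext (h.pow_pow' b).symm, by simp⟩, ?_⟩
  simp [h.ψ_eq, h.φ0, frobenius_def, ← pow_mul, mul_comm]

theorem cc_W0 {x : T.Γ} (hx : x ∈ T.X (T.S.cs 1)) (y : K) : hπ.cc x (h.W 0 y) = 1 := by
  have hq' : 2 < Fintype.card K := by omega
  obtain ⟨m, -, hm⟩ := h.good.exists_acts (T.S.wo1 0)
  have c3 : hπ.CT T.X (T.S.cs 0).neg (T.S.cs 0).neg := wo_smul_cs (T := T.S) 0 ▸ ct_conj hπ hm (h.ct0 hπ hq)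
  have m0 : R.sim 0 ∈ (T.S.cs 0).1 := T.S.sim_mem_PJ (T.S.mem_orb_self 0)
  obtain ⟨t, ht, -, h0⟩ := (h.ne_cs 1 (neg_mem m0)
    (by rw [R.rt_neg, R.rt_sim]; decide +kernel)).elim (h.tsep hq' 1 _)
  obtain ⟨M, hM, hi⟩ := YT_bot' hπ (h.good.torus_comm h.hg h.G1_eq h.h3) c3 ht h0
  have st : ∀ A : T.S.Cl, (∀ r ∈ A.1, R.rt r ∉ lcF4 0 ∧ -R.rt r ∉ lcF4 0) →
      (∀ r ∈ A.1, ∀ s ∈ (T.S.cs 0).neg.1, ∀ t u, Commute (E.x r t) (E.x s u)) → T.X A ≤ hπ.stab M :=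
    fun A h1 h2 => le_stab_of_cc hπ fun a ha b hb => by
      obtain ⟨r, hr⟩ := A.nonempty
      obtain ⟨a1, a2⟩ := h.ne_cs 0 hr (h1 r hr)
      rw [TSep.ct hπ (tsep_of_simple (E := (h.good.rgd h.hg).toPre)
        (fun k s h1 h2 => .inl (h.tsep hq' k s h1 h2)) (T.S.cs 0).neg A a2
        fun e => a1 (e.trans (neg_neg _))).symm (fun a ha b hb => Subtype.ext (commute_XS h2 ha hb).eq)
        a ha b (hM.le hb)]
      exact one_mem _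
  obtain ⟨a, ha, b, hb, e⟩ := h.exists_comm y
  refine hi _ ?_ (by rw [CE.map_cc]; exact (h.co.comm_w0 hx y).commutator_eq)
  rw [e]
  refine (hπ.commutator_cenM'_le M x (Subgroup.commutator_mem_commutator
    (⟨st _ (fun r hr => ?_) (fun r hr s hs => ?_) ha, ?_⟩ : a ∈ hπ.cenM' M x)
    (⟨st _ (fun r hr => ?_) (fun r hr s hs => ?_) hb, ?_⟩ : b ∈ hπ.cenM' M x))).2
  · exact (by decide +kernel : ∀ x ∈ [_, _], x ∉ lcF4 0 ∧ -x ∉ lcF4 0) _ (h.mem_A1 hr)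
  · rcases (by decide +kernel : ∀ x ∈ [_, _], ∀ y ∈ [_, _], CkF4 x y [] ∨
      x = sF4 1 (sF4 2 (sF4 1 (sF4 2 (Pi.single 0 1)))) ∧ y = -Pi.single 0 1) _ (h.mem_A1 hr) _
      (h.mem_A3.1 hs) with H | ⟨a1, a2⟩
    · exact h.commute H
    obtain rfl : r = T.S.wo 1 (R.sim 0) := R.rt_inj (by simp only [a1, h.wo1, h.rt_s, R.rt_sim])
    obtain rfl : s = R.neg (R.sim 0) := R.rt_inj (by rw [a2, R.rt_neg, R.rt_sim])
    refine T.commute_of_τ (h.commute ?_)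
    rw [← T.S.W1_apply (T.S.wo_mem_W1 1), T.S.τ_neg, T.S.τ_sim, T.S_ρ, h.ρ0]
    simp only [h.wo1, h.rt_s, R.rt_neg, R.rt_sim]
    decide +kernel
  · rw [(show Commute x a from Subtype.ext (commute_XS (fun r hr s hs => h.commute
      ((by decide +kernel : ∀ x ∈ lcF4 1, ∀ y ∈ [_, _], CkF4 x y []) _ ((h.mem_cs 1).1 hr) _
        (h.mem_A1 hs))) hx ha).eq).commutator_eq]
    exact one_mem _
  · exact (by decide +kernel : ∀ x ∈ [_, _, _, _], x ∉ lcF4 0 ∧ -x ∉ lcF4 0) _ (h.mem_A4 hr)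
  · exact h.commute ((by decide +kernel : ∀ x ∈ [_, _, _, _], ∀ y ∈ [_, _], CkF4 x y []) _
      (h.mem_A4 hr) _ (h.mem_A3.1 hs))
  · have k : ∀ {r s : ι}, CkF4 (R.rt r) (R.rt s) [![-1, 0, 0, 0], ![0, 0, 0, -1]] →
        s ≠ R.neg r ∧ R.Cone r s ⊆ (T.S.cs 0).neg.1 := fun H =>
      ⟨(h.cone H).1, fun k hk => h.mem_A3.2 ((h.cone H).2 k hk)⟩
    rw [hM]
    exact comm_mem_XS E (fun r hr s hs => k ((by decide +kernel : ∀ x ∈ lcF4 1,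
      ∀ y ∈ [_, _, _, _] ++ [_, _], CkF4 x y _) _ ((h.mem_cs 1).1 hr) _
      (List.mem_append.2 (hs.imp h.mem_A4 h.mem_A3.1)))) (fun r hr s hs => k
      ((by decide +kernel : ∀ x ∈ [_, _, _, _], ∀ y ∈ [_, _], CkF4 x y _) _ (h.mem_A4 hr) _
      (h.mem_A3.1 hs))) hx hb

include hπ

/-- The `2`-part of the multiplier of `²F₄(q)`, `q > 2`. -/
theorem kerPP (hs : π.ker ≤ commutator Γ) : KerPP π 2 := by
  have hq' : 2 < Fintype.card K := by omega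
  have hH := h.good.torus_comm h.hg h.G1_eq h.h3
  have h0 : ∀ k, ∃ t ∈ torus T.X, Fpf t (T.X (T.S.cs (gF4 k))) := fun k => by
    obtain ⟨t, ht, -, h0⟩ := (h.ne_cs (k + 1) (B := T.S.cs (gF4 k)) (r := R.sim (gF4 k))
      (T.S.sim_mem_PJ (T.S.mem_orb_self _))
      (by rw [R.rt_sim]; revert k; decide +kernel)).elim (h.tsep hq' _ _)
    exact ⟨t, ht, h0⟩
  have h1 : ∀ x ∈ T.X (T.S.cs 1), ∀ y ∈ ⁅T.X (T.S.cs 1), T.X (T.S.cs 1)⁆, hπ.cc x y = 1 :=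
    fun x hx y hy => by
      obtain ⟨v, rfl⟩ := h.co.comm_le hy
      exact h.cc_W0 hπ hq hx v
  obtain ⟨Y, hY⟩ := exists_tlift hπ (E := (h.good.rgd h.hg).toPre) hH (fun k => by
    fin_cases k
    exacts [fun x hx y hy => h.ct0 hπ hq x hx y (commutator_self_le _ hy), h1]) (fun k => by
    fin_cases k
    · exact fun x hx y hy => h.ct0 hπ hq x hx y hy ▸ one_mem _
    obtain ⟨t, ht, a0⟩ := h0 1
    obtain ⟨a1, -⟩ := Y1_spec hπ (E := (h.good.rgd h.hg).toPre) hH h1 ht a0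
    refine h.co.cc_mem hπ (by rwa [Nat.card_eq_fintype_card])
      (le_stab_of_cc hπ fun x hx y hy => h1 x hx y (a1 ▸ hy) ▸ one_mem _) a1.ge
      (fun x hx => h.cc_W0 hπ hq hx) fun k hk => ?_
    obtain ⟨d, hd, a2⟩ := h.sc k hk
    exact ⟨d, CE.le_stab (fun g hg y hy => Y1_act hπ (E := (h.good.rgd h.hg).toPre)
      (mem_torus.1 hg) hy) hd, a2⟩) h0
  exact (hY.goodLift (tsep_of_simple fun k s h1 h2 => .inl (h.tsep hq' k s h1 h2))).kerPP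
    (h.good.faith h.hg) (h.good.Gp_eq h.hg h.G1_eq) (h.good.isPGroup_X 2)
    (h.good.H0_eq h.hg h.G1_eq ▸ not_dvd_card_H1 h.h3 2) hs

theorem ker_eq_bot [Finite Γ] (h3 : Fintype.card K % 3 = 2) (hs : π.ker ≤ commutator Γ) : π.ker = ⊥ := by
  have hk := h.kerPP hπ hq hs
  have a1 := card_T_lift_Sz (E := h.good.rgd h.hg) (i := 1) hπ hk (h.good.isPGroup_X 2)
    (h.good.faith h.hg) (h.good.Gp_eq h.hg h.G1_eq) hs
    (h.good.H0_eq h.hg h.G1_eq ▸ not_dvd_card_H1 h.h3 2) h.co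
    (by rw [Nat.card_eq_fintype_card]; omega) (by rwa [Nat.card_eq_fintype_card])
    (fun m hm d hd => h.all (Good.rep_of_M (k := 1) h.hg h.good hm) hd) h.sc
  have := hπ.card_ker_mul_dvd hk (h.good.isPGroup_X 2) (h.good.faith h.hg)
    (h.good.Gp_eq h.hg h.G1_eq) hs (fun _ => Nat.card K - 1) fun k => by
      fin_cases k
      exacts [hπ.card_T_lift_dvd hk _ (h.good.faith h.hg) (Par.node h.hg h.good (k := 0) h.par0), a1.dvd]
  rw [h.good.H0_eq h.hg h.G1_eq, card_H1, Fin.prod_univ_two] at this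
  refine Subgroup.eq_bot_of_card_eq _ (Nat.dvd_one.1
    (Nat.dvd_of_mul_dvd_mul_right (Nat.card_pos (α := ↥(E.H ⊓ T.Γ))) ?_))
  rw [one_mul]
  exact this.trans (by rw [h.card_H, sq, Nat.card_eq_fintype_card])

end IsF4

open Cfsg Cfsg.Lie in
theorem multiplier_F4 {K : Type*} [Field K] [Fintype K] {m : ℕ} (hm : 1 ≤ m)
    (hK : Fintype.card K = 2 ^ (2 * m + 1)) : HasCyclicSchurMultiplier (twistedF4 K (2 ^ m)) 1 := by
  obtain ⟨R, E, hE, T, h, e⟩ := exists_F4 hK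
  have := h.char
  rw [e]
  refine H60.hasSchur_of_mulEquiv (T.Γ.equivMapOfInjective _ (chevF4.group K).subtype_injective) ?_
  refine H78.Schur.hasCyclic_one_iff.2 fun Δ _ _ τ hτ => h.ker_eq_bot ⟨hτ.1, hτ.2.1⟩ ?_ ?_ hτ.2.2
  · exact hK ▸ lt_of_lt_of_le (by norm_num) (Nat.pow_le_pow_right two_pos (by omega : 3 ≤ 2 * m + 1))
  · rw [hK, pow_succ, pow_mul, Nat.mul_mod, Nat.pow_mod]; simp

end H39
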